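import Cfsg.Agent.Linear.PSL2MaxBase

/-!
# Two-generated solvable subgroups of `PSL₂(q)`

An element `a ≠ 1` of a solvable group `⟨x, y⟩` commuting with all its conjugates gives the possible shapes of
the pair `(x, y)`, without the list of subgroups of Dickson.
-/

set_option autoImplicit false
set_option linter.unusedSectionVars false
set_option linter.style.haveILetI false

namespace Cfsg.Agent.Core.Solubilizer

open scoped commutatorElement

/-- `x` and `y` generate a solvable subgroup. -/
def Sol {G : Type*} [Group G] (x y : G) : Prop :=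
  Group.IsSolvable ↥(Subgroup.closure ({x, y} : Set G))

section generic

variable {G : Type*} [Group G]

theorem sol_of_closure_eq {x y x' y' : G} (h : Subgroup.closure ({x, y} : Set G) = Subgroup.closure {x', y'})
    (hs : Sol x' y') : Sol x y := by
  unfold Sol at *
  rw [h]
  exact hs

theorem sol_of_normalized [Finite G] (N : Subgroup G) (hN : ∀ a ∈ N, ∀ b ∈ N, a * b = b * a) {x y : G}
    (hx : x ∈ N) (hy : ∀ n ∈ N, y * n * y⁻¹ ∈ N) : Sol x y := by
  set M := Subgroup.normalizer (N : Set G)
  set K := Subgroup.closure ({x, y} : Set G) with hK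
  have hyM : y ∈ M := Subgroup.mem_normalizer_fintype hy
  have hKM : K ≤ M := (Subgroup.closure_le _).2 (by
    rintro z (rfl | rfl)
    · exact Subgroup.le_normalizer hx
    · exact hyM)
  haveI : (N.subgroupOf M).Normal := Subgroup.normal_in_normalizer
  let q := QuotientGroup.mk' (N.subgroupOf M)
  let f : ↥K →* ↥M ⧸ N.subgroupOf M := q.comp (Subgroup.inclusion hKM)
  have hcyc : ∀ k : ↥K, f k ∈ Subgroup.zpowers (q ⟨y, hyM⟩) := by
    intro k
    have : K ≤ ((Subgroup.zpowers (q ⟨y, hyM⟩)).comap q).map M.subtype := (Subgroup.closure_le _).2 (by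
      rintro z (rfl | rfl)
      · refine ⟨⟨z, Subgroup.le_normalizer hx⟩, ?_, rfl⟩
        show q ⟨z, Subgroup.le_normalizer hx⟩ ∈ Subgroup.zpowers (q ⟨y, hyM⟩)
        rw [show q ⟨z, Subgroup.le_normalizer hx⟩ = 1 from (QuotientGroup.eq_one_iff _).2 hx]
        exact one_mem _
      · exact ⟨⟨z, hyM⟩, Subgroup.mem_zpowers _, rfl⟩)
    obtain ⟨m, hm, e⟩ := this k.2
    have : m = Subgroup.inclusion hKM k := Subtype.ext e
    subst this
    exact hm
  haveI : Group.IsSolvable f.ker := Group.isSolvable_of_comm fun a b => by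
    have mem : ∀ c : f.ker, ((c : ↥K) : G) ∈ N := fun c =>
      (QuotientGroup.eq_one_iff (Subgroup.inclusion hKM (c : ↥K))).1 c.2
    exact Subtype.ext (Subtype.ext (hN _ (mem a) _ (mem b)))
  haveI : Group.IsSolvable f.range := Group.isSolvable_of_comm fun a b => by
    obtain ⟨k, hk⟩ := a.2
    obtain ⟨l, hl⟩ := b.2
    obtain ⟨i, hi⟩ := hcyc k
    obtain ⟨j, hj⟩ := hcyc l
    apply Subtype.ext
    show a.1 * b.1 = b.1 * a.1
    rw [← hk, ← hl, ← hi, ← hj]
    exact (Commute.zpow_zpow_self _ i j).eq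
  exact Group.isSolvable_of_ker_le_range f.ker.subtype f.rangeRestrict (by simp)

theorem sol_of_commute [Finite G] {x y : G} (h : Commute x y) : Sol x y := by
  refine sol_of_normalized (Subgroup.zpowers x) ?_ (Subgroup.mem_zpowers x) ?_
  · rintro _ ⟨i, rfl⟩ _ ⟨j, rfl⟩
    exact (Commute.zpow_zpow_self x i j).eq
  · rintro _ ⟨i, rfl⟩
    refine ⟨i, ?_⟩
    show x ^ i = y * x ^ i * y⁻¹
    rw [((h.zpow_left i).symm).eq, mul_inv_cancel_right]

theorem sol_of_invert [Finite G] {x y : G} (h : y * x * y⁻¹ = x⁻¹) : Sol x y := by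
  refine sol_of_normalized (Subgroup.zpowers x) ?_ (Subgroup.mem_zpowers x) ?_
  · rintro _ ⟨i, rfl⟩ _ ⟨j, rfl⟩
    exact (Commute.zpow_zpow_self x i j).eq
  · rintro _ ⟨i, rfl⟩
    refine ⟨-i, ?_⟩
    show x ^ (-i) = y * x ^ i * y⁻¹
    rw [← conj_zpow, h, _root_.inv_zpow, _root_.zpow_neg]

theorem sol_two_involutions [Finite G] {x y : G} (hx : x * x = 1) (hy : y * y = 1) : Sol x y := by
  refine sol_of_closure_eq (x' := x * y) (y' := y) ?_ (sol_of_invert ?_)
  · refine le_antisymm ((Subgroup.closure_le _).2 ?_) ((Subgroup.closure_le _).2 ?_)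
    · rintro z (rfl | rfl)
      · have := mul_mem (Subgroup.subset_closure (show z * y ∈ ({z * y, y} : Set G) by simp))
          (inv_mem (Subgroup.subset_closure (show y ∈ ({z * y, y} : Set G) by simp)))
        simpa using this
      · exact Subgroup.subset_closure (by simp)
    · rintro z (rfl | rfl)
      · exact mul_mem (Subgroup.subset_closure (by simp)) (Subgroup.subset_closure (by simp))
      · exact Subgroup.subset_closure (by simp)
  · rw [mul_inv_rev, inv_eq_of_mul_eq_one_left hx, inv_eq_of_mul_eq_one_left hy]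
    simp [mul_assoc, hy]

theorem sol_mul_involution [Finite G] {x y : G} (hx : x * x = 1) (hxy : x * y * (x * y) = 1) : Sol x y := by
  refine sol_of_closure_eq (x' := x) (y' := x * y) ?_ (sol_two_involutions hx hxy)
  refine le_antisymm ((Subgroup.closure_le _).2 ?_) ((Subgroup.closure_le _).2 ?_)
  · rintro z (rfl | rfl)
    · exact Subgroup.subset_closure (by simp)
    · have := mul_mem (inv_mem (Subgroup.subset_closure (show x ∈ ({x, x * z} : Set G) by simp)))
        (Subgroup.subset_closure (show x * z ∈ ({x, x * z} : Set G) by simp))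
      simpa using this
  · rintro z (rfl | rfl)
    · exact Subgroup.subset_closure (by simp)
    · exact mul_mem (Subgroup.subset_closure (by simp)) (Subgroup.subset_closure (by simp))

/-- A quotient of `A₄`. -/
theorem sol_four [Finite G] {x y : G} (hx : x * x = 1) (hy : y ^ 3 = 1) (hxy : (x * y) ^ 3 = 1) : Sol x y := by
  obtain ⟨b, hb⟩ : ∃ b, b = y * x * y⁻¹ := ⟨_, rfl⟩
  obtain ⟨c, hc⟩ : ∃ c, c = y * b * y⁻¹ := ⟨_, rfl⟩
  have hy3 : y * y * y = 1 := by rw [← hy, pow_succ, pow_two]
  have hbb : b * b = 1 := by rw [hb]; simp [mul_assoc, show x * (x * y⁻¹) = y⁻¹ by rw [← mul_assoc, hx, one_mul]]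
  have hcc : c * c = 1 := by rw [hc]; simp [mul_assoc, show b * (b * y⁻¹) = y⁻¹ by rw [← mul_assoc, hbb, one_mul]]
  have habc : x * b * c = 1 := by
    calc x * b * c = (x * y) ^ 3 * (y * y * y)⁻¹ := by rw [hc, hb, pow_succ, pow_two]; group
      _ = 1 := by rw [hxy, hy3, inv_one, mul_one]
  have hc' : c = b * x := by
    rw [eq_inv_of_mul_eq_one_right habc, mul_inv_rev, inv_eq_of_mul_eq_one_left hbb,
      inv_eq_of_mul_eq_one_left hx]
  have hcomm : x * b = b * x := by
    have h1 : x * b = c⁻¹ := eq_inv_of_mul_eq_one_left habc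
    rw [h1, inv_eq_of_mul_eq_one_left hcc, hc']
  refine sol_of_normalized (Subgroup.closure {x, b}) ?_ (Subgroup.subset_closure (by simp)) ?_
  · intro u hu v hv
    have h1 : u ∈ Subgroup.centralizer ({x, b} : Set G) := (Subgroup.closure_le _).2 (by
      rintro z (rfl | rfl) <;> rw [SetLike.mem_coe, Subgroup.mem_centralizer_iff] <;> rintro w (rfl | rfl) <;>
        first | rfl | exact hcomm | exact hcomm.symm) hu
    have h2 : v ∈ Subgroup.centralizer ({u} : Set G) := (Subgroup.closure_le _).2 (fun z hz => by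
      rw [SetLike.mem_coe, Subgroup.mem_centralizer_singleton_iff]
      exact Subgroup.mem_centralizer_iff.1 h1 z hz) hv
    exact (Subgroup.mem_centralizer_singleton_iff.1 h2).symm
  · intro n hn
    have hle : Subgroup.closure {x, b} ≤ (Subgroup.closure {x, b}).comap (MulAut.conj y).toMonoidHom := by
      refine (Subgroup.closure_le _).2 ?_
      rintro z (rfl | rfl)
      · rw [SetLike.mem_coe, Subgroup.mem_comap]
        simp only [MulEquiv.coe_toMonoidHom, MulAut.conj_apply]
        rw [← hb]
        exact Subgroup.subset_closure (by simp)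
      · rw [SetLike.mem_coe, Subgroup.mem_comap]
        simp only [MulEquiv.coe_toMonoidHom, MulAut.conj_apply]
        rw [← hc, hc']
        exact mul_mem (Subgroup.subset_closure (by simp)) (Subgroup.subset_closure (by simp))
    exact hle hn

/-- An element commuting with all its conjugates. -/
theorem exists_special [Finite G] {x y : G} (h : Sol x y) (hx : x ≠ 1) :
    ∃ a : G, a ≠ 1 ∧ ∀ k ∈ Subgroup.closure ({x, y} : Set G), ∀ l ∈ Subgroup.closure ({x, y} : Set G),
      Commute (k * a * k⁻¹) (l * a * l⁻¹) := by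
  classical
  set K := Subgroup.closure ({x, y} : Set G)
  have hex := h.solvable
  obtain ⟨n, hn, hmin⟩ : ∃ n, derivedSeries ↥K n = ⊥ ∧ ∀ m < n, derivedSeries ↥K m ≠ ⊥ :=
    ⟨Nat.find hex, Nat.find_spec hex, fun m hm => Nat.find_min hex hm⟩
  have hxK : x ∈ K := Subgroup.subset_closure (by simp)
  cases n with
  | zero =>
    rw [derivedSeries_zero] at hn
    have : (⟨x, hxK⟩ : K) ∈ (⊥ : Subgroup ↥K) := hn ▸ Subgroup.mem_top _
    exact absurd (congrArg Subtype.val (Subgroup.mem_bot.1 this)) hx
  | succ m =>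
    obtain ⟨⟨a, ha⟩, ha1⟩ := (Subgroup.ne_bot_iff_exists_ne_one.1 (hmin m (Nat.lt_succ_self m)))
    refine ⟨a, fun e => ha1 (Subtype.ext (Subtype.ext e)), fun k hk l hl => ?_⟩
    have hab : ∀ u ∈ derivedSeries ↥K m, ∀ v ∈ derivedSeries ↥K m, u * v = v * u := by
      intro u hu v hv
      have : ⁅u, v⁆ ∈ derivedSeries ↥K (m + 1) := by
        rw [derivedSeries_succ]; exact Subgroup.commutator_mem_commutator hu hv
      rw [hn, Subgroup.mem_bot] at this
      exact commutatorElement_eq_one_iff_mul_comm.1 this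
    have hnorm := (derivedSeries_normal ↥K m).conj_mem a ha
    exact congrArg Subtype.val (hab _ (hnorm ⟨k, hk⟩) _ (hnorm ⟨l, hl⟩))

/-- Two commuting involutions generating a self-centralising four-group. -/
structure Four (A B : G) : Prop where
  sqA : A * A = 1
  sqB : B * B = 1
  comm : A * B = B * A
  neA : A ≠ 1
  neB : B ≠ 1
  ne : A ≠ B
  cent : ∀ k : G, Commute k A → Commute k B → k = 1 ∨ k = A ∨ k = B ∨ k = A * B

/-- The three involutions. -/
def tri (A B : G) : Set G := {A, B, A * B}

/-- `k` permutes the three involutions. -/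
def NV (A B k : G) : Prop := ∀ z ∈ tri A B, k * z * k⁻¹ ∈ tri A B

/-- The four-group as a set. -/
def vset (A B : G) : Set G := insert 1 (tri A B)

variable {A B : G}

theorem Four.mul_ne (h : Four A B) : A * B ≠ 1 ∧ A * B ≠ A ∧ A * B ≠ B := by
  refine ⟨fun e => h.ne ?_, fun e => h.neB (by simpa using e), fun e => h.neA (by simpa using e)⟩
  rw [eq_inv_of_mul_eq_one_left e, inv_eq_of_mul_eq_one_left h.sqB]

theorem Four.prod (h : Four A B) : Four A (A * B) := by
  refine ⟨h.sqA, ?_, ?_, h.neA, h.mul_ne.1, fun e => h.mul_ne.2.1 e.symm, fun k hA hAB => ?_⟩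
  · calc A * B * (A * B) = A * (B * A) * B := by group
      _ = A * (A * B) * B := by rw [h.comm]
      _ = (A * A) * (B * B) := by group
      _ = 1 := by rw [h.sqA, h.sqB, one_mul]
  · rw [← mul_assoc, h.sqA, one_mul, mul_assoc, ← h.comm, ← mul_assoc, h.sqA, one_mul]
  · have hB : Commute k B := by
      have := hA.inv_right.mul_right hAB
      simpa using this
    rcases h.cent k hA hB with r | r | r | r
    · exact Or.inl r
    · exact Or.inr (Or.inl r)
    · exact Or.inr (Or.inr (Or.inr (by rw [r, ← mul_assoc, h.sqA, one_mul])))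
    · exact Or.inr (Or.inr (Or.inl r))

theorem tri_prod (h : Four A B) : tri A (A * B) = tri A B := by
  ext z
  simp only [tri, Set.mem_insert_iff, Set.mem_singleton_iff, ← mul_assoc, h.sqA, one_mul]
  tauto

theorem Four.vset_fix (h : Four A B) {v z : G} (hv : v ∈ vset A B) (hz : z ∈ tri A B) : v * z * v⁻¹ = z := by
  have key : Commute v z := by
    have c : Commute A B := h.comm
    rcases hv with rfl | rfl | rfl | rfl
    · exact Commute.one_left z
    · rcases hz with rfl | rfl | rfl
      · exact Commute.refl _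
      · exact c
      · exact (Commute.refl _).mul_right c
    · rcases hz with rfl | rfl | rfl
      · exact c.symm
      · exact Commute.refl _
      · exact c.symm.mul_right (Commute.refl _)
    · rcases hz with rfl | rfl | rfl
      · exact (Commute.refl _).mul_left c.symm
      · exact c.mul_left (Commute.refl _)
      · exact Commute.refl _
  rw [key.eq, mul_inv_cancel_right]

theorem vset_sq (h : Four A B) {v : G} (hv : v ∈ vset A B) : v * v = 1 := by
  rcases hv with rfl | rfl | rfl | rfl
  · exact one_mul 1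
  · exact h.sqA
  · exact h.sqB
  · exact h.prod.sqB

variable (no4 : ∀ z : G, z ^ 4 = 1 → z * z = 1)
include no4

/-- An element fixing one of the three involutions fixes all. -/
theorem Four.fix_mem (h : Four A B) {k : G} (hk : NV A B k) (hA : k * A * k⁻¹ = A) : k ∈ vset A B := by
  have cA : Commute k A := mul_inv_eq_iff_eq_mul.1 hA
  rcases hk B (by simp [tri]) with e | e | e
  · refine absurd ?_ h.ne
    have : k * B * k⁻¹ = k * A * k⁻¹ := by rw [e, hA]
    simpa using this.symm
  · rcases h.cent k cA (mul_inv_eq_iff_eq_mul.1 e) with r | r | r | r <;> simp [vset, tri, r]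
  · exfalso
    have hkk : k * k * B * (k * k)⁻¹ = B := by
      calc k * k * B * (k * k)⁻¹ = k * (k * B * k⁻¹) * k⁻¹ := by group
        _ = k * (A * B) * k⁻¹ := by rw [e]
        _ = (k * A * k⁻¹) * (k * B * k⁻¹) := by group
        _ = A * (A * B) := by rw [hA, e]
        _ = B := by rw [← mul_assoc, h.sqA, one_mul]
    have hk2 : k * k = 1 ∨ k * k = A := by
      have hc : Commute k (k * k) := (Commute.refl k).mul_right (Commute.refl k)
      rcases h.cent (k * k) (cA.mul_left cA) (mul_inv_eq_iff_eq_mul.1 hkk) with r | r | r | r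
      · exact Or.inl r
      · exact Or.inr r
      · rw [r] at hc
        rw [hc.eq, mul_inv_cancel_right] at e
        exact absurd e.symm h.mul_ne.2.2
      · rw [r] at hc
        have : k * B * k⁻¹ = B := by
          have := cA.inv_right.mul_right hc
          simp only [inv_mul_cancel_left] at this
          rw [this.eq, mul_inv_cancel_right]
        rw [this] at e
        exact absurd e.symm h.mul_ne.2.2
    rcases hk2 with r | r
    · have hz : k * B * (k * B) = A := by
        have hki : k⁻¹ = k := inv_eq_of_mul_eq_one_left r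
        calc k * B * (k * B) = (k * B * k) * B := by group
          _ = A * B * B := by nth_rewrite 2 [← hki]; rw [e]
          _ = A := by rw [mul_assoc, h.sqB, mul_one]
      have := no4 (k * B) (by rw [show 4 = 2 + 2 from rfl, pow_add, pow_two, hz, h.sqA])
      rw [hz] at this
      exact h.neA this
    · have := no4 k (by rw [show 4 = 2 + 2 from rfl, pow_add, pow_two, r, h.sqA])
      rw [r] at this
      exact h.neA this

theorem Four.fix_any (h : Four A B) (h' : Four B A) {k z : G} (hk : NV A B k) (hz : z ∈ tri A B)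
    (e : k * z * k⁻¹ = z) : k ∈ vset A B := by
  have hsym : tri B A = tri A B := by
    ext w; simp only [tri, Set.mem_insert_iff, Set.mem_singleton_iff, h.comm]; tauto
  rcases hz with rfl | rfl | rfl
  · exact h.fix_mem no4 hk e
  · have := h'.fix_mem no4 (k := k) (by unfold NV; rw [hsym]; exact hk) e
    rwa [vset, hsym] at this
  · have h2 : Four (A * B) A := by
      refine ⟨h.prod.sqB, h.sqA, h.prod.comm.symm, h.mul_ne.1, h.neA, h.mul_ne.2.1, fun j h1 h2 => ?_⟩
      rcases h.prod.cent j h2 h1 with r | r | r | r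
      · exact Or.inl r
      · exact Or.inr (Or.inr (Or.inl r))
      · exact Or.inr (Or.inl r)
      · exact Or.inr (Or.inr (Or.inr (by rw [r, h.prod.comm])))
    have htr : tri (A * B) A = tri A B := by
      rw [← tri_prod h]
      ext w; simp only [tri, Set.mem_insert_iff, Set.mem_singleton_iff, h.prod.comm]; tauto
    have := h2.fix_mem no4 (k := k) (by unfold NV; rw [htr]; exact hk) e
    rwa [vset, htr] at this

theorem Four.symm (h : Four A B) : Four B A :=
  ⟨h.sqB, h.sqA, h.comm.symm, h.neB, h.neA, h.ne.symm, fun k hB hA => by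
    rcases h.cent k hA hB with r | r | r | r
    · exact Or.inl r
    · exact Or.inr (Or.inr (Or.inl r))
    · exact Or.inr (Or.inl r)
    · exact Or.inr (Or.inr (Or.inr (by rw [r, h.comm])))⟩

/-- The image of `A` under an element outside the four-group. -/
theorem Four.move (h : Four A B) {k : G} (hk : NV A B k) (hn : k ∉ vset A B) :
    ∃ A₁ : G, k * A * k⁻¹ = A₁ ∧ Four A A₁ ∧ tri A A₁ = tri A B ∧ k * A₁ * k⁻¹ = A * A₁ ∧
      k * (A * A₁) * k⁻¹ = A := by
  have nofix : ∀ z ∈ tri A B, k * z * k⁻¹ ≠ z := fun z hz e => hn (h.fix_any no4 (h.symm no4) hk hz e)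
  obtain ⟨A₁, hA₁, h1, htr⟩ : ∃ A₁, k * A * k⁻¹ = A₁ ∧ Four A A₁ ∧ tri A A₁ = tri A B := by
    rcases hk A (by simp [tri]) with e | e | e
    · exact absurd e (nofix A (by simp [tri]))
    · exact ⟨B, e, h, rfl⟩
    · exact ⟨A * B, e, h.prod, tri_prod h⟩
  have h2 : k * A₁ * k⁻¹ = A * A₁ := by
    have hm : k * A₁ * k⁻¹ ∈ tri A A₁ := by rw [htr]; exact hk A₁ (htr ▸ by simp [tri])
    rcases hm with e | e | e
    · exfalso
      refine nofix (A * A₁) (htr ▸ by simp [tri]) ?_
      calc k * (A * A₁) * k⁻¹ = (k * A * k⁻¹) * (k * A₁ * k⁻¹) := by group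
        _ = A * A₁ := by rw [hA₁, e, h1.comm]
    · exact absurd e (nofix A₁ (htr ▸ by simp [tri]))
    · exact e
  refine ⟨A₁, hA₁, h1, htr, h2, ?_⟩
  calc k * (A * A₁) * k⁻¹ = (k * A * k⁻¹) * (k * A₁ * k⁻¹) := by group
    _ = A₁ * (A * A₁) := by rw [hA₁, h2]
    _ = (A₁ * A) * A₁ := by rw [mul_assoc]
    _ = A := by rw [← h1.comm, mul_assoc, h1.sqB, mul_one]

theorem Four.cube (h : Four A B) {k : G} (hk : NV A B k) (hn : k ∉ vset A B) : k ^ 3 = 1 := by
  obtain ⟨A₁, e0, h1, htr, e1, e2⟩ := h.move no4 hk hn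
  have f0 : k ^ 3 * A * (k ^ 3)⁻¹ = A := by
    calc k ^ 3 * A * (k ^ 3)⁻¹ = k * (k * (k * A * k⁻¹) * k⁻¹) * k⁻¹ := by rw [pow_succ, pow_two]; group
      _ = A := by rw [e0, e1, e2]
  have f1 : k ^ 3 * A₁ * (k ^ 3)⁻¹ = A₁ := by
    calc k ^ 3 * A₁ * (k ^ 3)⁻¹ = k * (k * (k * A₁ * k⁻¹) * k⁻¹) * k⁻¹ := by rw [pow_succ, pow_two]; group
      _ = A₁ := by rw [e1, e2, e0]
  have hm := h1.cent (k ^ 3) (mul_inv_eq_iff_eq_mul.1 f0) (mul_inv_eq_iff_eq_mul.1 f1)
  by_contra hne
  have hz : k ^ 3 ∈ tri A B := by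
    rw [← htr]
    rcases hm with r | r | r | r
    · exact absurd r hne
    all_goals simp [tri, r]
  refine hn (h.fix_any no4 (h.symm no4) hk hz ?_)
  rw [((Commute.refl k).pow_right 3).eq, mul_inv_cancel_right]

/-- Two elements outside the four-group agree up to inversion modulo it. -/
theorem Four.coset (h : Four A B) {k m : G} (hk : NV A B k) (hm : NV A B m) (hkn : k ∉ vset A B)
    (hmn : m ∉ vset A B) : k⁻¹ * m ∈ vset A B ∨ k * m ∈ vset A B := by
  obtain ⟨A₁, e0, h1, htr, e1, e2⟩ := h.move no4 hk hkn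
  have hk3 := h.cube no4 hk hkn
  have hNVinv : NV A B k⁻¹ := by
    have hk2 : k⁻¹ = k * k := inv_eq_of_mul_eq_one_left (by rw [← hk3, pow_succ, pow_two])
    intro z hz
    have := hk _ (hk z hz)
    rw [hk2]
    simpa [mul_assoc, mul_inv_rev] using this
  have hmul : ∀ u v : G, NV A B u → NV A B v → NV A B (u * v) := fun u v hu hv z hz => by
    have := hu _ (hv z hz)
    simpa [mul_assoc] using this
  have hmA : m * A * m⁻¹ ∈ tri A A₁ := by rw [htr]; exact hm A (by simp [tri])
  rcases hmA with e | e | e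
  · exact absurd (h.fix_any no4 (h.symm no4) hm (by simp [tri]) e) hmn
  · refine Or.inl (h.fix_mem no4 (hmul _ _ hNVinv hm) ?_)
    calc k⁻¹ * m * A * (k⁻¹ * m)⁻¹ = k⁻¹ * (m * A * m⁻¹) * k := by group
      _ = A := by rw [e, ← e0]; group
  · refine Or.inr (h.fix_mem no4 (hmul _ _ hk hm) ?_)
    calc k * m * A * (k * m)⁻¹ = k * (m * A * m⁻¹) * k⁻¹ := by group
      _ = A := by rw [e, e2]

end generic

section counting

variable {G H : Type*} [Group G] [Group H]

theorem card_preimage (f : G →* H) (hf : Function.Surjective f) (P : H → Prop) :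
    Nat.card {g : G // P (f g)} = Nat.card f.ker * Nat.card {h : H // P h} := by
  obtain ⟨s, hs⟩ := hf.hasRightInverse
  rw [← Nat.card_prod]
  exact Nat.card_congr
    { toFun := fun g => (⟨g.1 * (s (f g.1))⁻¹, by rw [MonoidHom.mem_ker, map_mul, map_inv, hs, mul_inv_cancel]⟩,
        ⟨f g.1, g.2⟩)
      invFun := fun p => ⟨p.1.1 * s p.2.1, by
        rw [map_mul, MonoidHom.mem_ker.1 p.1.2, one_mul, hs]; exact p.2.2⟩
      left_inv := fun g => Subtype.ext (inv_mul_cancel_right _ _)
      right_inv := fun p => by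
        obtain ⟨⟨k, hk⟩, ⟨h, hh⟩⟩ := p
        have he : f (k * s h) = h := by rw [map_mul, MonoidHom.mem_ker.1 hk, one_mul, hs]
        simp only [he, mul_inv_cancel_right] }

theorem card_sol_conj (c x : G) :
    Nat.card {y : G // Sol (c * x * c⁻¹) y} = Nat.card {y : G // Sol x y} := by
  refine (Nat.card_congr ((MulAut.conj c).toEquiv.subtypeEquiv fun y => ?_)).symm
  have himg : Subgroup.closure ({c * x * c⁻¹, c * y * c⁻¹} : Set G) =
      (Subgroup.closure ({x, y} : Set G)).map (MulAut.conj c).toMonoidHom := by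
    rw [MonoidHom.map_closure, Set.image_pair]
    rfl
  show Sol x y ↔ Sol (c * x * c⁻¹) (c * y * c⁻¹)
  unfold Sol
  rw [himg]
  let e := (Subgroup.closure ({x, y} : Set G)).equivMapOfInjective (MulAut.conj c).toMonoidHom
    (MulAut.conj c).injective
  exact ⟨fun h => Group.isSolvable_of_surjective (f := e.toMonoidHom) e.surjective,
    fun h => Group.isSolvable_of_isSolvable_injective (f := e.toMonoidHom) e.injective⟩

end counting

end Cfsg.Agent.Core.Solubilizer
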