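import Cfsg.Agent.Core.Solubilizer.Struct

/-!
# Solubilizers in `PSL₂(3^p)`, `p` odd
-/

set_option autoImplicit false
set_option linter.unusedSectionVars false
set_option linter.style.haveILetI false
set_option linter.unusedSimpArgs false
set_option maxHeartbeats 600000

namespace Cfsg.Agent.Core.Solubilizer

open Matrix
open Cfsg.Agent.Dickson (SL2 tr uel lel ext2 det_eq mul_apply2 IsScal exists_of_commute commute_of_commute
  tr_conj tr_neg tr_one)
open Cfsg.Agent.Linear (toPSL toPSL_surjective toPSL_eq_iff toPSL_eq_one_iff toPSL_neg quatJ)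
open Cfsg.Agent.Linear.PSL2Borel (borelP borelSL toPSL_mem_borelP card_borelSL)

variable {F : Type*} [Field F] [Fintype F]

local notation "SL" => Matrix.SpecialLinearGroup (Fin 2) F
local notation "PSL" => Matrix.ProjectiveSpecialLinearGroup (Fin 2) F

theorem sol_symm {G : Type*} [Group G] {x y : G} (h : Sol x y) : Sol y x :=
  sol_of_closure_eq (by rw [Set.pair_comm]) h

theorem sol_mul_left {G : Type*} [Group G] {x w z : G} (hw : w ∈ Subgroup.zpowers x) (h : Sol x z) :
    Sol x (w * z) := by
  have hxle : ∀ s : G, Subgroup.zpowers x ≤ Subgroup.closure ({x, s} : Set G) := fun s =>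
    Subgroup.zpowers_le.2 (Subgroup.subset_closure (by simp))
  refine sol_of_closure_eq (x' := x) (y' := z) ?_ h
  refine le_antisymm ((Subgroup.closure_le _).2 ?_) ((Subgroup.closure_le _).2 ?_)
  · rintro s (rfl | rfl)
    · exact Subgroup.subset_closure (by simp)
    · exact mul_mem (hxle z hw) (Subgroup.subset_closure (by simp))
  · rintro s (rfl | rfl)
    · exact Subgroup.subset_closure (by simp)
    · have := mul_mem (inv_mem (hxle (w * s) hw))
        (Subgroup.subset_closure (show w * s ∈ ({x, w * s} : Set G) by simp))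
      simpa using this

theorem NV.mul {G : Type*} [Group G] {A B u v : G} (hu : NV A B u) (hv : NV A B v) : NV A B (u * v) :=
  fun z hz => by simpa [mul_assoc] using hu _ (hv z hz)

theorem not_scal_uel {b : F} (hb : b ≠ 0) : ¬ IsScal (uel b : SL) := fun h => hb (by simpa using h.1)

theorem trace_eq (g : SL) : Cfsg.Agent.Linear.PSL2Classes.tr g = tr g := by
  simp [Cfsg.Agent.Linear.PSL2Classes.tr, tr, Matrix.trace_fin_two]

theorem conj_of_tr' {g h : SL} (hg : ¬ IsScal g) (hh : ¬ IsScal h) (e : tr g = tr h) (ht : tr g ^ 2 ≠ 4) :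
    ∃ u : SL, h = u * g * u⁻¹ :=
  Cfsg.Agent.Linear.PSL2Classes.conj_of_tr hg hh (by rw [trace_eq, trace_eq, e]) (Or.inl (by rwa [trace_eq]))

theorem exists_upper {a : SL} {l : F} (hl : l ^ 2 - tr a * l + 1 = 0) :
    ∃ u : SL, (u * a * u⁻¹) 1 0 = 0 := by
  by_cases h10 : a 1 0 = 0
  · exact ⟨1, by simpa using h10⟩
  obtain ⟨u, -, -, u10, u11⟩ : ∃ u : SL, u 0 0 = 0 ∧ u 0 1 = -(a 1 0)⁻¹ ∧ u 1 0 = a 1 0 ∧ u 1 1 = l - a 0 0 :=
    ⟨⟨!![0, -(a 1 0)⁻¹; a 1 0, l - a 0 0], by simp [Matrix.det_fin_two, h10]⟩, rfl, rfl, rfl, rfl⟩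
  refine ⟨u, ?_⟩
  simp [mul_apply2, u10, u11]
  simp only [tr] at hl
  linear_combination (a 1 0) * hl + (a 1 0) * det_eq a

@[simp] theorem J00 : (quatJ : SL) 0 0 = 0 := rfl
@[simp] theorem J01 : (quatJ : SL) 0 1 = -1 := rfl
@[simp] theorem J10 : (quatJ : SL) 1 0 = 1 := rfl
@[simp] theorem J11 : (quatJ : SL) 1 1 = 0 := rfl

theorem tr_J_mul (h : SL) : tr ((quatJ : SL) * h) = h 0 1 - h 1 0 := by
  simp [tr, mul_apply2]; ring

/-- A matrix given by its entries. -/
def mat2 (a b c d : F) (h : a * d - b * c = 1) : SL := ⟨!![a, b; c, d], by rw [Matrix.det_fin_two_of]; exact h⟩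

@[simp] theorem mat2_00 (a b c d : F) (h : a * d - b * c = 1) : mat2 a b c d h 0 0 = a := rfl
@[simp] theorem mat2_01 (a b c d : F) (h : a * d - b * c = 1) : mat2 a b c d h 0 1 = b := rfl
@[simp] theorem mat2_10 (a b c d : F) (h : a * d - b * c = 1) : mat2 a b c d h 1 0 = c := rfl
@[simp] theorem mat2_11 (a b c d : F) (h : a * d - b * c = 1) : mat2 a b c d h 1 1 = d := rfl

/-- The elements of trace zero with a given set of lower left entries. -/
theorem ncard_tr_zero (S : Set F) (hS : (0 : F) ∉ S) :
    {h : SL | tr h = 0 ∧ h 1 0 ∈ S}.ncard = S.ncard * Fintype.card F := by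
  rw [← Nat.card_coe_set_eq, ← Nat.card_coe_set_eq S, ← Nat.card_eq_fintype_card, ← Nat.card_prod]
  exact Nat.card_congr
    { toFun := fun h => (⟨h.1 1 0, h.2.2⟩, h.1 0 0)
      invFun := fun p => ⟨⟨!![p.2, (-(p.2 ^ 2) - 1) / p.1.1; p.1.1, -p.2], by
          have hne : (p.1.1 : F) ≠ 0 := fun e => hS (e ▸ p.1.2)
          rw [Matrix.det_fin_two_of]; field_simp; ring⟩, by
        refine ⟨?_, ?_⟩
        · simp [tr]
        · exact p.1.2⟩
      left_inv := fun h => by
        obtain ⟨h, ht, hS'⟩ := h
        have hne : h 1 0 ≠ 0 := fun e => hS (e ▸ hS')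
        simp only [tr] at ht
        apply Subtype.ext
        apply ext2
        · rfl
        · show (-(h 0 0 ^ 2) - 1) / h 1 0 = h 0 1
          rw [div_eq_iff hne]
          linear_combination det_eq h - (h 0 0) * ht
        · rfl
        · show -(h 0 0) = h 1 1
          linear_combination -ht
      right_inv := fun p => rfl }

/-- Basic facts about a field with `3^(odd)` elements. -/
structure Ctx (F : Type*) [Field F] [Fintype F] : Prop where
  char : CharP F 3
  mod : Fintype.card F % 4 = 3

variable (c : Ctx F)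
include c

theorem Ctx.three : (3 : F) = 0 := by
  haveI := c.char
  exact_mod_cast CharP.cast_eq_zero F 3

theorem Ctx.two : (2 : F) = -1 := by linear_combination c.three

theorem Ctx.two_ne : (2 : F) ≠ 0 := by rw [c.two]; exact neg_ne_zero.2 one_ne_zero

theorem Ctx.four : (4 : F) = 1 := by linear_combination c.three

theorem Ctx.sq_ne (t : F) : t ^ 2 ≠ -1 := fun h => by
  have : IsSquare (-1 : F) := ⟨t, by rw [← pow_two, h]⟩
  exact FiniteField.isSquare_neg_one_iff.1 this c.mod

theorem Ctx.card_pre (P : PSL → Prop) :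
    {h : SL | P (toPSL h)}.ncard = 2 * Nat.card {y : PSL // P y} := by
  rw [← Nat.card_coe_set_eq]
  refine (card_preimage toPSL toPSL_surjective P).trans ?_
  congr 1
  rw [show (toPSL : SL →* PSL).ker = Subgroup.center SL from QuotientGroup.ker_mk' _,
    Cfsg.Agent.Linear.card_center_SL (F := F) 2]
  refine Nat.gcd_eq_left ?_
  have := c.mod
  omega

theorem Ctx.no4' (z : PSL) (hz : z ^ 4 = 1) : z * z = 1 :=
  no4 (fun t h => c.sq_ne t (h.trans c.two)) z hz

theorem Ctx.vset_case {a b g : SL} (hF : Four (toPSL a) (toPSL b)) (hg : toPSL g ∈ vset (toPSL a) (toPSL b))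
    (hne : toPSL g ≠ 1) : tr g = 0 :=
  tr_zero_of_psl_sq hne (vset_sq hF hg)

theorem Ctx.not_vset_case {a b g : SL} (hF : Four (toPSL a) (toPSL b)) (hN : NV (toPSL a) (toPSL b) (toPSL g))
    (hg : toPSL g ∉ vset (toPSL a) (toPSL b)) : tr g ^ 2 = 1 := by
  haveI := c.char
  exact order_three.1 (hF.cube c.no4' hN hg)

/-- A semisimple element which is no involution. -/
theorem Ctx.semi_struct {g h : SL} (hg : Semi g) (hs : Sol (toPSL g) (toPSL h)) :
    (h * g = g * h ∨ h * g * h⁻¹ = g⁻¹) ∨
      ∃ a : SL, Unip a ∧ Commute (toPSL a) (toPSL g * toPSL a * (toPSL g)⁻¹) ∧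
        Commute (toPSL a) (toPSL h * toPSL a * (toPSL h)⁻¹) := by
  have hg1 : toPSL g ≠ 1 := fun e => hg.not_scal (isScal_iff.2 e)
  have fin : Norm2 g h → h * g = g * h ∨ h * g * h⁻¹ = g⁻¹ := by
    rintro (e | e)
    · exact Or.inl (comm_exact hg.reg (comm_of_conj_eq e).symm).symm
    · exact Or.inr (hg.invert_exact e)
  obtain ⟨a, ⟨ha, n1, n2⟩ | hu | ⟨-, hta, cg, ch⟩ | ⟨-, b, -, -, hF, Ng, -⟩⟩ := struct hg1 hs
  · rcases n1 with e | e
    · exact Or.inl (fin (Semi.norm2_transfer ha.not_scal hg (comm_of_conj_eq e).symm n2))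
    · exact absurd (ha.tr_zero_of_invert e) hg.2
  · exact Or.inr ⟨a, hu⟩
  · have hns : ¬ IsScal a := fun h' => by
      rcases h'.eq_one_or with rfl | rfl
      · exact c.two_ne (by rw [← hta, tr_one])
      · exact c.two_ne (by rw [tr_neg, tr_one, neg_eq_zero] at hta; exact hta)
    exact Or.inl (fin (Semi.norm2_transfer hns hg cg.symm (Or.inl (mul_inv_eq_iff_eq_mul.2 ch.eq))))
  · exfalso
    by_cases hv : toPSL g ∈ vset (toPSL a) (toPSL b)
    · exact hg.2 (c.vset_case hF hv hg1)
    · exact hg.1 ((c.not_vset_case hF Ng hv).trans c.four.symm)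

omit c

theorem sol_of_inv_exact {g h : SL} (e : h * g * h⁻¹ = g⁻¹) : Sol (toPSL g) (toPSL h) :=
  sol_of_invert (by rw [conj_psl, e, map_inv])

theorem sol_of_comm_exact {g h : SL} (e : h * g = g * h) : Sol (toPSL g) (toPSL h) :=
  sol_of_commute (comm_of_comm e.symm)

/-- The elements inverting `g` form a coset of its centralizer. -/
theorem ncard_inverters {g w : SL} (hw : w * g * w⁻¹ = g⁻¹) :
    {h : SL | h * g * h⁻¹ = g⁻¹}.ncard = {h : SL | h * g = g * h}.ncard := by
  rw [← Nat.card_coe_set_eq, ← Nat.card_coe_set_eq]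
  refine Nat.card_congr ((Equiv.mulLeft w).subtypeEquiv fun h => ?_).symm
  show h * g = g * h ↔ w * h * g * (w * h)⁻¹ = g⁻¹
  rw [← mul_inv_eq_iff_eq_mul, show w * h * g * (w * h)⁻¹ = w * (h * g * h⁻¹) * w⁻¹ by group, ← hw]
  simp only [mul_left_inj, mul_right_inj]

theorem centralizer_eq_set (g : SL) :
    Nat.card (Subgroup.centralizer ({g} : Set SL)) = {h : SL | h * g = g * h}.ncard := by
  rw [← Nat.card_coe_set_eq]
  exact Nat.card_congr (Equiv.subtypeEquivRight fun h => Subgroup.mem_centralizer_singleton_iff)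

include c

theorem Ctx.card_nonsplit {g : SL} (hg : Semi g) (hr : ∀ l : F, l ^ 2 - tr g * l + 1 ≠ 0) :
    {h : SL | Sol (toPSL g) (toPSL h)}.ncard = 2 * (Fintype.card F + 1) := by
  obtain ⟨w, hw, -⟩ := Cfsg.Agent.Linear.PSL2Max.exists_inverter (g := g) hg.not_scal
    (fun l hl => absurd (by rwa [trace_eq] at hl) (hr l))
  have hset : {h : SL | Sol (toPSL g) (toPSL h)} = {h | h * g = g * h} ∪ {h | h * g * h⁻¹ = g⁻¹} := by
    ext h
    refine ⟨fun hs => ?_, ?_⟩
    · rcases c.semi_struct hg hs with r | ⟨a, hu, cg, -⟩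
      · exact r
      · exact (unip_none hu hr cg).elim
    · rintro (e | e)
      · exact sol_of_comm_exact e
      · exact sol_of_inv_exact e
  rw [hset, Set.ncard_union_eq ?_ (Set.toFinite _) (Set.toFinite _), ncard_inverters hw, ← centralizer_eq_set,
    Cfsg.Agent.Linear.PSL2ClassSizes.card_centralizer_ell (fun l => by rw [trace_eq]; exact hr l)]
  · ring
  · rw [Set.disjoint_left]
    intro h (h1 : h * g = g * h) (h2 : h * g * h⁻¹ = g⁻¹)
    rw [h1, mul_inv_cancel_right] at h2
    refine hg.2 (tr_zero_of_psl_sq (fun e => hg.not_scal (isScal_iff.2 e)) ?_)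
    rw [← map_mul]
    nth_rewrite 2 [h2]
    rw [mul_inv_cancel, map_one]

omit c

theorem conj_J_entries (h : SL) :
    ((quatJ : SL) * h * (quatJ : SL)⁻¹) 1 0 = -(h 0 1) ∧ ((quatJ : SL) * h * (quatJ : SL)⁻¹) 0 1 = -(h 1 0) := by
  constructor <;> simp [mul_apply2]

theorem ncard_upper : {h : SL | h 1 0 = 0}.ncard = Fintype.card F * (Fintype.card F - 1) := by
  rw [← Nat.card_coe_set_eq, ← card_borelSL (F := F)]
  exact Nat.card_congr (Equiv.subtypeEquivRight fun h => Iff.rfl)

theorem ncard_lower : {h : SL | h 0 1 = 0}.ncard = Fintype.card F * (Fintype.card F - 1) := by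
  rw [← ncard_upper, ← Nat.card_coe_set_eq, ← Nat.card_coe_set_eq]
  exact Nat.card_congr ((MulAut.conj (quatJ : SL)).toEquiv.subtypeEquiv fun h => by
    show h 0 1 = 0 ↔ ((quatJ : SL) * h * (quatJ : SL)⁻¹) 1 0 = 0
    rw [(conj_J_entries h).1, neg_eq_zero])

theorem ncard_torus : {h : SL | h 1 0 = 0 ∧ h 0 1 = 0}.ncard = Fintype.card F - 1 := by
  rw [← Nat.card_coe_set_eq, ← Nat.card_eq_fintype_card, ← Nat.card_units]
  refine Nat.card_congr
    { toFun := fun h => Units.mk0 (h.1 0 0) (fun e => by
        have := det_eq h.1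
        rw [e, h.2.1] at this
        simp at this)
      invFun := fun u => ⟨dg (u : F) u.ne_zero, rfl, rfl⟩
      left_inv := fun h => by
        obtain ⟨h, h10, h01⟩ := h
        have hd := det_eq h
        rw [h10, h01, mul_zero, sub_zero] at hd
        apply Subtype.ext
        apply ext2
        · rfl
        · exact h01.symm
        · exact h10.symm
        · exact inv_eq_of_mul_eq_one_right hd
      right_inv := fun u => Units.ext rfl }

theorem ncard_anti_torus : {h : SL | h 0 0 = 0 ∧ h 1 1 = 0}.ncard = Fintype.card F - 1 := by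
  rw [← ncard_torus, ← Nat.card_coe_set_eq, ← Nat.card_coe_set_eq]
  refine Nat.card_congr ((Equiv.mulLeft (quatJ : SL)).subtypeEquiv fun h => ?_)
  show h 0 0 = 0 ∧ h 1 1 = 0 ↔ ((quatJ : SL) * h) 1 0 = 0 ∧ ((quatJ : SL) * h) 0 1 = 0
  simp [mul_apply2]

include c

theorem Ctx.card_split {l : F} (hl : l ≠ 0) (hg : Semi (dg l hl)) :
    {h : SL | Sol (toPSL (dg l hl)) (toPSL h)}.ncard = 2 * Fintype.card F * (Fintype.card F - 1) := by
  haveI := c.char
  haveI : Fact (Nat.Prime 3) := ⟨Nat.prime_three⟩
  have hl2 : l * l ≠ 1 := fun e => hg.1 (by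
    simp [tr]; field_simp; linear_combination (l * l - 1) * e)
  have hset : {h : SL | Sol (toPSL (dg l hl)) (toPSL h)} =
      ({h | h 1 0 = 0} ∪ {h | h 0 1 = 0}) ∪ {h | h 0 0 = 0 ∧ h 1 1 = 0} := by
    ext h
    refine ⟨fun hs => ?_, ?_⟩
    · rcases c.semi_struct hg hs with (e | e) | ⟨a, hu, cg, ch⟩
      · left; left
        have := congrArg (fun m : SL => m 1 0) e
        simp [mul_apply2] at this
        by_contra h0
        have h0' : h 1 0 ≠ 0 := h0
        refine hl2 ?_
        have h1 : l = l⁻¹ := mul_left_cancel₀ h0' (by linear_combination this)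
        nth_rewrite 2 [h1]
        exact mul_inv_cancel₀ hl
      · right
        have e' := mul_inv_eq_iff_eq_mul.1 e
        have e0 := congrArg (fun m : SL => m 0 0) e'
        have e1 := congrArg (fun m : SL => m 1 1) e'
        simp [mul_apply2] at e0 e1
        constructor
        · by_contra h0
          refine hl2 ?_
          have h1 : l = l⁻¹ := mul_left_cancel₀ h0 (by linear_combination e0)
          nth_rewrite 2 [h1]
          exact mul_inv_cancel₀ hl
        · by_contra h0
          refine hl2 ?_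
          have h1 : l = l⁻¹ := mul_left_cancel₀ h0 (by linear_combination -e1)
          nth_rewrite 2 [h1]
          exact mul_inv_cancel₀ hl
      · rcases unip_diag hu hl hg cg with r | r
        · exact Or.inl (Or.inl (fix_upper hu r ch))
        · exact Or.inl (Or.inr (fix_lower hu r ch))
    · have borel : ∀ u : SL, (u * dg l hl * u⁻¹) 1 0 = 0 → (u * h * u⁻¹) 1 0 = 0 →
          Sol (toPSL (dg l hl)) (toPSL h) := fun u e1 e2 => by
        refine Cfsg.Agent.Linear.PSL2Dickson.isSolvable_of_borel 3 (g := toPSL u) ?_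
        rw [Subgroup.map_le_iff_le_comap, Subgroup.closure_le]
        rintro z (rfl | rfl) <;> rw [SetLike.mem_coe, Subgroup.mem_comap] <;>
          simp only [MulEquiv.coe_toMonoidHom, MulAut.conj_apply, conj_psl, toPSL_mem_borelP]
        · exact e1
        · exact e2
      rintro ((e | e) | ⟨e0, e1⟩)
      · exact borel 1 (by simp) (by simpa using e)
      · exact borel quatJ (by rw [(conj_J_entries _).1]; simp)
          (by rw [(conj_J_entries _).1, neg_eq_zero]; exact e)
      · refine sol_of_inv_exact ?_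
        rw [mul_inv_eq_iff_eq_mul]
        apply ext2 <;> simp [mul_apply2, e0, e1, mul_comm]
  have hdis : Disjoint ({h : SL | h 1 0 = 0} ∪ {h | h 0 1 = 0}) {h | h 0 0 = 0 ∧ h 1 1 = 0} := by
    rw [Set.disjoint_left]
    rintro h hh ⟨e0, e1⟩
    have hd := det_eq h
    rcases hh with (e : h 1 0 = 0) | (e : h 0 1 = 0) <;> simp [e, e0] at hd
  rw [hset, Set.ncard_union_eq hdis (Set.toFinite _) (Set.toFinite _), ncard_anti_torus]
  have hu := Set.ncard_union_add_ncard_inter {h : SL | h 1 0 = 0} {h : SL | h 0 1 = 0}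
    (Set.toFinite _) (Set.toFinite _)
  rw [ncard_upper, ncard_lower, show {h : SL | h 1 0 = 0} ∩ {h : SL | h 0 1 = 0} =
    {h : SL | h 1 0 = 0 ∧ h 0 1 = 0} from rfl, ncard_torus] at hu
  rw [mul_assoc]
  omega

omit c in
/-- The centralizer of `quatJ` is the circle. -/
def circleEquiv : {h : SL // h * quatJ = quatJ * h} ≃ {p : F × F // p.1 * p.1 + p.2 * p.2 = 1} where
  toFun h := ⟨(h.1 0 0, h.1 1 0), by
    have a := congrArg (fun m : SL => m 0 1) h.2
    have b := congrArg (fun m : SL => m 0 0) h.2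
    simp [mul_apply2] at a b
    linear_combination det_eq h.1 + (h.1 1 0) * b + (h.1 0 0) * a⟩
  invFun p := ⟨mat2 p.1.1 (-p.1.2) p.1.2 p.1.1 (by linear_combination p.2), by
    apply ext2 <;> simp [mul_apply2]⟩
  left_inv h := by
    have a := congrArg (fun m : SL => m 0 1) h.2
    have b := congrArg (fun m : SL => m 0 0) h.2
    simp [mul_apply2] at a b
    apply Subtype.ext
    apply ext2 <;> simp
    · linear_combination -b
    · linear_combination a
  right_inv p := by simp

theorem Ctx.card_Q : {h : SL | tr h ^ 2 = 1 ∧ tr ((quatJ : SL) * h) ^ 2 = 1}.ncard =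
    4 * {h : SL | h * quatJ = quatJ * h}.ncard := by
  have h3 := c.three
  have nE : Nat.card {s : F // s ^ 2 = 1} = 2 := by
    have e : {s : F | s ^ 2 = 1} = {1, -1} := by
      ext s
      simp
    have := congrArg Set.ncard e
    rwa [Set.ncard_pair (fun e => c.two_ne (by linear_combination e)), ← Nat.card_coe_set_eq] at this
  rw [← Nat.card_coe_set_eq, ← Nat.card_coe_set_eq]
  let E : {h : SL // tr h ^ 2 = 1 ∧ tr ((quatJ : SL) * h) ^ 2 = 1} ≃
      {s : F // s ^ 2 = 1} × {v : F // v ^ 2 = 1} × {p : F × F // p.1 * p.1 + p.2 * p.2 = 1} :=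
    { toFun := fun h => (⟨tr h.1, h.2.1⟩, ⟨tr ((quatJ : SL) * h.1), h.2.2⟩,
        ⟨(h.1 0 0 - h.1 1 1, -(h.1 0 1 + h.1 1 0)), by
          have q1 := h.2.1
          have q2 := h.2.2
          simp only [tr_J_mul] at q2
          simp only [tr] at q1
          linear_combination q1 + q2 - 4 * det_eq h.1 - h3⟩)
      invFun := fun p => ⟨mat2 (-(p.1.1 + p.2.2.1.1)) (-p.2.1.1 - p.2.2.1.2 + 2 * p.2.2.1.2)
          (p.2.1.1 + p.2.2.1.2) (p.2.2.1.1 - p.1.1) (by
            linear_combination p.1.2 + p.2.1.2 - p.2.2.2), by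
        constructor
        · simp only [tr, mat2_00, mat2_11]; linear_combination p.1.2 + (p.1.1 ^ 2) * h3
        · simp only [tr_J_mul, mat2_01, mat2_10]; linear_combination p.2.1.2 + (p.2.1.1 ^ 2) * h3⟩
      left_inv := fun h => by
        obtain ⟨h, q1, q2⟩ := h
        apply Subtype.ext
        apply ext2 <;> simp only [mat2_00, mat2_01, mat2_10, mat2_11, tr_J_mul] <;> (try simp only [tr])
        · linear_combination (-(h 0 0)) * h3
        · linear_combination (-(h 0 1)) * h3
        · linear_combination (-(h 1 0)) * h3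
        · linear_combination (-(h 1 1)) * h3
      right_inv := fun p => by
        obtain ⟨⟨s, hs⟩, ⟨v, hv⟩, ⟨⟨a, b⟩, hab⟩⟩ := p
        simp only [Prod.mk.injEq, Subtype.mk.injEq]
        refine ⟨?_, ?_, ?_, ?_⟩
        · simp [tr]; linear_combination (-s) * h3
        · simp [tr_J_mul]; linear_combination (-v) * h3
        · simp; linear_combination (-a) * h3
        · simp; linear_combination (-b) * h3 }
  show Nat.card {h : SL // tr h ^ 2 = 1 ∧ tr ((quatJ : SL) * h) ^ 2 = 1} =
    4 * Nat.card {h : SL // h * quatJ = quatJ * h}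
  rw [Nat.card_congr E, Nat.card_prod, Nat.card_prod, nE, Nat.card_congr circleEquiv]
  ring

theorem Ctx.card_J : {h : SL | Sol (toPSL (quatJ : SL)) (toPSL h)}.ncard =
    2 * (Fintype.card F * (Fintype.card F + 1)) := by
  haveI := c.char
  have hJ0 : tr (quatJ : SL) = 0 := by simp [tr]
  have hJsq := psl_sq_of_tr_zero (F := F) hJ0
  have hJns : ¬ IsScal (quatJ : SL) := fun h => one_ne_zero (α := F) (by simpa using h.2.1)
  have hJ1 : toPSL (quatJ : SL) ≠ 1 := fun e => hJns (isScal_iff.2 e)
  have hJr : ∀ l : F, l ^ 2 - tr (quatJ : SL) * l + 1 ≠ 0 := fun l e =>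
    c.sq_ne l (by rw [hJ0] at e; linear_combination e)
  set P0 : Set SL := {h | tr h = 0} with hP0
  set P1 : Set SL := {h | tr ((quatJ : SL) * h) = 0} with hP1
  set C : Set SL := {h | h * quatJ = quatJ * h} with hC
  set Q : Set SL := {h | tr h ^ 2 = 1 ∧ tr ((quatJ : SL) * h) ^ 2 = 1} with hQ
  have hset : {h : SL | Sol (toPSL (quatJ : SL)) (toPSL h)} = ((P0 ∪ P1) ∪ C) ∪ Q := by
    ext h
    refine ⟨fun hs => ?_, ?_⟩
    · by_cases h00 : tr h = 0
      · exact Or.inl (Or.inl (Or.inl h00))
      by_cases h11 : tr ((quatJ : SL) * h) = 0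
      · exact Or.inl (Or.inl (Or.inr h11))
      obtain ⟨a, ⟨ha, n1, n2⟩ | ⟨hu, cg, -⟩ | ⟨-, hta, cg, ch⟩ | ⟨-, b, -, -, hF, Ng, Nh⟩⟩ := struct hJ1 hs
      · rcases n2 with e | e
        swap
        · exact absurd (ha.tr_zero_of_invert e) h00
        rcases n1 with e' | e'
        · exact Or.inl (Or.inr (commute_of_commute ha.not_scal (comm_exact ha.reg (comm_of_conj_eq e).symm)
            (comm_exact ha.reg (comm_of_conj_eq e').symm)))
        · refine absurd (ha.tr_zero_of_invert ?_) h11
          calc _ = toPSL quatJ * (toPSL h * toPSL a * (toPSL h)⁻¹) * (toPSL quatJ)⁻¹ := by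
                rw [map_mul]; group
            _ = _ := by rw [e, e']
      · exact (unip_none hu hJr cg).elim
      · have hns : ¬ IsScal a := fun h' => by
          rcases h'.eq_one_or with rfl | rfl
          · exact c.two_ne (by rw [← hta, tr_one])
          · exact c.two_ne (by rw [tr_neg, tr_one, neg_eq_zero] at hta; exact hta)
        have e1 := comm_exact (Or.inl h00) ch
        have e2 := comm_exact (g := quatJ * h) (h := a) (Or.inl h11) (by rw [map_mul]; exact cg.mul_left ch)
        rw [mul_assoc, e1, ← mul_assoc, ← mul_assoc, mul_left_inj] at e2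
        exact Or.inl (Or.inr (commute_of_commute hns e1.symm e2.symm))
      · have hgV : toPSL (quatJ : SL) ∈ vset (toPSL a) (toPSL b) := by
          by_contra hv
          have := c.not_vset_case hF Ng hv
          rw [hJ0] at this
          norm_num at this
        by_cases hhV : toPSL h ∈ vset (toPSL a) (toPSL b)
        · have hcm : Commute (toPSL h) (toPSL (quatJ : SL)) := by
            rcases hgV with r | r
            · exact absurd r hJ1
            · exact mul_inv_eq_iff_eq_mul.1 (hF.vset_fix hhV r)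
          rcases psl_comm hcm with e | e
          · exact Or.inl (Or.inr e)
          · exact absurd ((mul_eq_zero.1 (anti_tr e).1).resolve_left c.two_ne) h00
        refine Or.inr ⟨c.not_vset_case hF Nh hhV, c.not_vset_case hF ?_ ?_⟩
        · rw [map_mul]; exact Ng.mul Nh
        · rw [map_mul]
          intro hv
          refine hhV (hF.fix_mem c.no4' Nh ?_)
          have hA : toPSL a ∈ tri (toPSL a) (toPSL b) := by simp [tri]
          have e1 := hF.vset_fix hv hA
          have e2 := hF.vset_fix hgV hA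
          have e3 : toPSL quatJ * (toPSL h * toPSL a * (toPSL h)⁻¹) * (toPSL quatJ)⁻¹ =
              toPSL quatJ * toPSL a * (toPSL quatJ)⁻¹ := by
            rw [e2]
            refine Eq.trans ?_ e1
            group
          simpa using e3
    · rintro (((e | e) | e) | ⟨e1, e2⟩)
      · exact sol_two_involutions hJsq (psl_sq_of_tr_zero e)
      · exact sol_mul_involution hJsq (by rw [← map_mul]; exact psl_sq_of_tr_zero e)
      · exact sol_of_comm_exact e
      · exact sol_four hJsq (order_three.2 e1) (by rw [← map_mul]; exact order_three.2 e2)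
  have n0 : P0.ncard = (Fintype.card F - 1) * Fintype.card F := by
    have : P0 = {h : SL | tr h = 0 ∧ h 1 0 ∈ ({0}ᶜ : Set F)} := by
      ext h
      refine ⟨fun ht => ⟨ht, fun h10 => c.sq_ne (h 0 0) ?_⟩, fun ht => ht.1⟩
      have ht' : h 0 0 + h 1 1 = 0 := ht
      have h10' : h 1 0 = 0 := h10
      linear_combination (h 0 0) * ht' - det_eq h - (h 0 1) * h10'
    rw [this, ncard_tr_zero _ (by simp), Set.ncard_compl, Set.ncard_singleton, Nat.card_eq_fintype_card]
  have n1 : P1.ncard = P0.ncard := by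
    rw [← Nat.card_coe_set_eq, ← Nat.card_coe_set_eq]
    exact Nat.card_congr ((Equiv.mulLeft (quatJ : SL)).subtypeEquiv fun h => Iff.rfl)
  have nC : C.ncard = Fintype.card F + 1 := by
    rw [hC, ← centralizer_eq_set,
      Cfsg.Agent.Linear.PSL2ClassSizes.card_centralizer_ell (fun l => by rw [trace_eq]; exact hJr l)]
  have hmem : ∀ h : SL, h * quatJ * h⁻¹ = (quatJ : SL)⁻¹ ↔ h ∈ P0 ∩ P1 := by
    intro h
    rw [mul_inv_eq_iff_eq_mul, Set.mem_inter_iff, hP0, hP1]
    simp only [Set.mem_ofPred_eq, tr_J_mul]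
    simp only [tr]
    constructor
    · intro e
      have a := congrArg (fun m : SL => m 0 1) e
      have b := congrArg (fun m : SL => m 0 0) e
      simp [mul_apply2] at a b
      exact ⟨by linear_combination -a, by linear_combination b⟩
    · rintro ⟨a, b⟩
      apply ext2 <;> simp [mul_apply2]
      · linear_combination b
      · linear_combination -a
      · linear_combination a
      · linear_combination -b
  have n01 : (P0 ∩ P1).ncard = C.ncard := by
    obtain ⟨w, hw, -⟩ := Cfsg.Agent.Linear.PSL2Max.exists_inverter (g := (quatJ : SL)) hJns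
      (fun l hl => absurd (by rwa [trace_eq] at hl) (hJr l))
    rw [← (Set.ext hmem : {h : SL | h * quatJ * h⁻¹ = (quatJ : SL)⁻¹} = P0 ∩ P1), hC]
    exact ncard_inverters hw
  have Centries : ∀ h ∈ C, h 1 1 = h 0 0 ∧ h 0 1 = -(h 1 0) := by
    intro h hh
    have a := congrArg (fun m : SL => m 0 1) (show h * quatJ = quatJ * h from hh)
    have b := congrArg (fun m : SL => m 0 0) (show h * quatJ = quatJ * h from hh)
    simp [mul_apply2] at a b
    exact ⟨by linear_combination -a, by linear_combination b⟩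
  have nC4 : ((P0 ∪ P1) ∩ C).ncard = 4 := by
    have heq : (P0 ∪ P1) ∩ C = {(1 : SL), -1, quatJ, -quatJ} := by
      ext h
      constructor
      · rintro ⟨hp, hh⟩
        obtain ⟨a, b⟩ := Centries h hh
        have hd := det_eq h
        rw [a, b] at hd
        rcases hp with (e : tr h = 0) | (e : tr ((quatJ : SL) * h) = 0)
        · simp only [tr] at e
          rw [a] at e
          have h00 : h 0 0 = 0 := (mul_eq_zero.1 (show (2 : F) * h 0 0 = 0 by linear_combination e)).resolve_left
            c.two_ne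
          rw [h00] at hd
          rcases sq_eq_one_iff.1 (show (h 1 0) ^ 2 = 1 by linear_combination hd) with r | r
          · right; right; left; apply ext2 <;> simp [a, b, h00, r]
          · right; right; right; apply ext2 <;> simp [a, b, h00, r]
        · rw [tr_J_mul, b] at e
          have h10 : h 1 0 = 0 := (mul_eq_zero.1 (show (2 : F) * h 1 0 = 0 by linear_combination -e)).resolve_left
            c.two_ne
          rw [h10] at hd
          rcases sq_eq_one_iff.1 (show (h 0 0) ^ 2 = 1 by linear_combination hd) with r | r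
          · left; apply ext2 <;> simp [a, b, h10, r]
          · right; left; apply ext2 <;> simp [a, b, h10, r]
      · rintro (rfl | rfl | rfl | rfl)
        · exact ⟨Or.inr (by simp [hP1, tr_J_mul]), by simp [hC]⟩
        · exact ⟨Or.inr (by simp [hP1, tr_J_mul]), by simp [hC]⟩
        · exact ⟨Or.inl hJ0, by simp [hC]⟩
        · exact ⟨Or.inl (by simp [hP0, tr_neg, hJ0]), by simp [hC]⟩
    have key : ∀ x y : SL, x 0 0 ≠ y 0 0 ∨ x 1 0 ≠ y 1 0 → x ≠ y := fun x y h e => by
      subst e; rcases h with h | h <;> exact h rfl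
    have h11 : (1 : F) ≠ -1 := fun e => c.two_ne (by linear_combination e)
    rw [heq, Set.ncard_insert_of_notMem ?_, Set.ncard_insert_of_notMem ?_, Set.ncard_insert_of_notMem ?_,
      Set.ncard_singleton]
    · simp only [Set.mem_singleton_iff]
      exact key _ _ (Or.inr (by simpa using h11))
    · simp only [Set.mem_insert_iff, Set.mem_singleton_iff, not_or]
      exact ⟨key _ _ (Or.inr (by simp)), key _ _ (Or.inr (by simp))⟩
    · simp only [Set.mem_insert_iff, Set.mem_singleton_iff, not_or]
      exact ⟨key _ _ (Or.inl (by simpa using h11)), key _ _ (Or.inr (by simp)), key _ _ (Or.inr (by simp))⟩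
  have nQ : Q.ncard = 4 * C.ncard := c.card_Q
  have hdQ : Disjoint ((P0 ∪ P1) ∪ C) Q := by
    rw [Set.disjoint_left]
    rintro h hh ⟨q1, q2⟩
    rcases hh with (e | e) | e
    · rw [show tr h = 0 from e] at q1; simp at q1
    · rw [show tr ((quatJ : SL) * h) = 0 from e] at q2; simp at q2
    · obtain ⟨a, b⟩ := Centries h e
      have hd := det_eq h
      rw [tr_J_mul] at q2
      simp only [tr] at q1
      rw [a] at q1 hd
      rw [b] at q2 hd
      exact c.two_ne (by linear_combination q1 + q2 - 4 * hd)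
  rw [hset, Set.ncard_union_eq hdQ (Set.toFinite _) (Set.toFinite _)]
  have u1 := Set.ncard_union_add_ncard_inter (P0 ∪ P1) C (Set.toFinite _) (Set.toFinite _)
  have u2 := Set.ncard_union_add_ncard_inter P0 P1 (Set.toFinite _) (Set.toFinite _)
  have e1 : Fintype.card F * (Fintype.card F + 1) = Fintype.card F * Fintype.card F + Fintype.card F := by ring
  rw [Nat.sub_mul, one_mul] at n0
  have : Fintype.card F ≤ Fintype.card F * Fintype.card F := Nat.le_mul_self _
  rw [n01, nC] at u2
  rw [nC4, nC] at u1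
  rw [nQ, nC, e1]
  omega

theorem Ctx.card_uel {b : F} (hb : b ≠ 0) :
    {h : SL | Sol (toPSL (uel b)) (toPSL h)}.ncard = Fintype.card F * (Fintype.card F + 5) := by
  haveI := c.char
  haveI : Fact (Nat.Prime 3) := ⟨Nat.prime_three⟩
  have htg : tr (uel b : SL) = 2 := by simp [tr]; norm_num
  have hg0 : tr (uel b : SL) ≠ 0 := by rw [htg]; exact c.two_ne
  have hg1 : toPSL (uel b : SL) ≠ 1 := fun e => not_scal_uel hb (isScal_iff.2 e)
  set S : Set F := {x | (b * x) ^ 2 = 1} with hS
  set W : Set SL := {v | tr v = 0 ∧ v 1 0 ∈ S} with hW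
  have hS0 : (0 : F) ∉ S := by simp [hS]
  set Cs : Set F := {0, b, -b} with hCs
  have mulent : ∀ (x : F) (v : SL), ((uel x : SL) * v) 1 0 = v 1 0 ∧
      tr ((uel x : SL) * v) = tr v + x * v 1 0 := fun x v => by
    constructor
    · simp [mul_apply2]
    · simp [tr, mul_apply2]; ring
  have hset : {h : SL | Sol (toPSL (uel b)) (toPSL h)} =
      {h | h 1 0 = 0} ∪ (fun p : F × SL => (uel p.1 : SL) * p.2) '' (Cs ×ˢ W) := by
    ext h
    refine ⟨fun hs => ?_, ?_⟩
    · have commA : ∀ a : SL, Commute (toPSL (uel b)) (toPSL a) → tr a ^ 2 = 4 := fun a ca => by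
        obtain ⟨x, y, e1, e2, e3, e4⟩ := exists_of_commute (not_scal_uel hb) (comm_exact (Or.inl hg0) ca)
        have hd := det_eq a
        simp at e1 e2 e3 e4
        rw [e1, e2, e3, e4] at hd
        simp only [tr]; rw [e1, e4]
        linear_combination 4 * hd
      obtain ⟨a, ⟨ha, n1, -⟩ | ⟨hu, cg, ch⟩ | ⟨-, hta, cg, -⟩ | ⟨-, a', -, -, hF, Ng, Nh⟩⟩ := struct hg1 hs
      · rcases n1 with e | e
        · exact absurd (commA a (comm_of_conj_eq e)) ha.1
        · exact absurd (ha.tr_zero_of_invert e) hg0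
      · exact Or.inl (fix_upper hu (unip_uel hu hb cg) ch)
      · have := commA a cg
        rw [hta, c.four] at this
        norm_num at this
      · have hgV : toPSL (uel b : SL) ∉ vset (toPSL a) (toPSL a') := fun hv => hg0 (c.vset_case hF hv hg1)
        have inW : ∀ v : SL, toPSL v ∈ vset (toPSL a) (toPSL a') → v 1 0 = 0 ∨ v ∈ W := by
          intro v hv
          by_cases hv1 : toPSL v = 1
          · exact Or.inl (isScal_iff.2 hv1).2.1
          have ht := c.vset_case hF hv hv1
          have hNv : NV (toPSL a) (toPSL a') (toPSL v) := fun z hz => by rw [hF.vset_fix hv hz]; exact hz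
          have h3 := c.not_vset_case hF (g := uel b * v) (by rw [map_mul]; exact Ng.mul hNv) (by
            rw [map_mul]
            intro hv'
            refine hgV (hF.fix_mem c.no4' Ng ?_)
            have hA : toPSL a ∈ tri (toPSL a) (toPSL a') := by simp [tri]
            calc toPSL (uel b) * toPSL a * (toPSL (uel b))⁻¹ =
                toPSL (uel b) * (toPSL v * toPSL a * (toPSL v)⁻¹) * (toPSL (uel b))⁻¹ := by
                  rw [hF.vset_fix hv hA]
              _ = toPSL (uel b) * toPSL v * toPSL a * (toPSL (uel b) * toPSL v)⁻¹ := by group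
              _ = toPSL a := hF.vset_fix hv' hA)
          rw [(mulent b v).2, ht, zero_add] at h3
          exact Or.inr ⟨ht, h3⟩
        have wrap : ∀ x ∈ Cs, ∀ v : SL, toPSL v ∈ vset (toPSL a) (toPSL a') → h = uel x * v →
            h ∈ {h : SL | h 1 0 = 0} ∪ (fun p : F × SL => (uel p.1 : SL) * p.2) '' (Cs ×ˢ W) := by
          intro x hx v hv e
          rcases inW v hv with r | r
          · left; show h 1 0 = 0; rw [e, (mulent x v).1]; exact r
          · exact Or.inr ⟨(x, v), ⟨hx, r⟩, e.symm⟩
        by_cases hhV : toPSL h ∈ vset (toPSL a) (toPSL a')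
        · exact wrap 0 (by simp [hCs]) h hhV (by simp [Cfsg.Agent.Dickson.uel_zero])
        rcases hF.coset c.no4' Ng Nh hgV hhV with r | r
        · rw [← map_inv, ← map_mul] at r
          exact wrap b (by simp [hCs]) _ r (by rw [mul_inv_cancel_left])
        · rw [← map_mul] at r
          refine wrap (-b) (by simp [hCs]) _ r ?_
          rw [← Cfsg.Agent.Dickson.uel_inv, inv_mul_cancel_left]
    · rintro (e | ⟨⟨x, v⟩, ⟨hx, ht, hv⟩, rfl⟩)
      · refine Cfsg.Agent.Linear.PSL2Dickson.isSolvable_of_borel 3 (g := toPSL 1) ?_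
        rw [Subgroup.map_le_iff_le_comap, Subgroup.closure_le]
        rintro z (rfl | rfl) <;> rw [SetLike.mem_coe, Subgroup.mem_comap] <;>
          simp only [MulEquiv.coe_toMonoidHom, MulAut.conj_apply, conj_psl, toPSL_mem_borelP] <;> simp
        exact e
      · show Sol (toPSL (uel b)) (toPSL ((uel x : SL) * v))
        rw [map_mul]
        refine sol_mul_left ?_ (sol_symm (sol_four (psl_sq_of_tr_zero ht) (order_three.2 ?_) ?_))
        · rcases hx with r | r | r
          · simp only at r; subst r; rw [Cfsg.Agent.Dickson.uel_zero, map_one]; exact one_mem _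
          · simp only at r; subst r; exact Subgroup.mem_zpowers _
          · simp only [Set.mem_singleton_iff] at r; subst r
            rw [← Cfsg.Agent.Dickson.uel_inv, map_inv]; exact inv_mem (Subgroup.mem_zpowers _)
        · rw [htg]; linear_combination c.three
        · rw [← map_mul]
          refine order_three.2 ?_
          have : tr (v * uel b) = tr (uel b * v) := by simp [tr, mul_apply2]; ring
          rw [this, (mulent b v).2, ht, zero_add]
          exact hv
  have hdis : Disjoint {h : SL | h 1 0 = 0} ((fun p : F × SL => (uel p.1 : SL) * p.2) '' (Cs ×ˢ W)) := by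
    rw [Set.disjoint_left]
    rintro _ e ⟨⟨x, v⟩, ⟨-, -, hv⟩, rfl⟩
    have e' : v 1 0 = 0 := (mulent x v).1 ▸ e
    exact hS0 (e' ▸ hv)
  have hinj : Set.InjOn (fun p : F × SL => (uel p.1 : SL) * p.2) (Cs ×ˢ W) := by
    rintro ⟨x, v⟩ ⟨-, tv, hv⟩ ⟨y, w⟩ ⟨-, tw, -⟩ (e : (uel x : SL) * v = uel y * w)
    have e1 := congrArg tr e
    have e2 := congrArg (fun m : SL => m 1 0) e
    simp only [(mulent x v).1, (mulent y w).1] at e2
    rw [(mulent x v).2, (mulent y w).2, tv, tw, ← e2] at e1
    have hxy : x = y := mul_right_cancel₀ (fun h0 : v 1 0 = 0 => hS0 (h0 ▸ hv)) (by linear_combination e1)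
    subst hxy
    rw [mul_left_cancel e]
  have nS : S.ncard = 2 := by
    have : S = {b⁻¹, -b⁻¹} := by
      ext x
      simp only [hS, Set.mem_ofPred_eq, sq_eq_one_iff, Set.mem_insert_iff, Set.mem_singleton_iff]
      constructor <;> rintro (r | r)
      · left; exact eq_inv_of_mul_eq_one_right r
      · right; field_simp; linear_combination r
      · left; rw [r, mul_inv_cancel₀ hb]
      · right; rw [r]; field_simp
    rw [this, Set.ncard_pair]
    intro e
    exact c.two_ne ((mul_eq_zero.1 (show (2 : F) * b⁻¹ = 0 by linear_combination e)).resolve_right (inv_ne_zero hb))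
  have nC : Cs.ncard = 3 := by
    rw [hCs, Set.ncard_eq_three]
    exact ⟨0, b, -b, hb.symm, (neg_ne_zero.2 hb).symm, fun e => c.two_ne
      ((mul_eq_zero.1 (show (2 : F) * b = 0 by linear_combination e)).resolve_right hb), rfl⟩
  rw [hset, Set.ncard_union_eq hdis (Set.toFinite _) (Set.toFinite _), ncard_upper, hinj.ncard_image,
    Set.ncard_prod, nC, hW, ncard_tr_zero S hS0, nS]
  have := Fintype.card_pos (α := F)
  have e1 : Fintype.card F * (Fintype.card F + 5) = Fintype.card F * Fintype.card F + 5 * Fintype.card F := by ring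
  have : Fintype.card F ≤ Fintype.card F * Fintype.card F := Nat.le_mul_self _
  rw [e1, Nat.mul_sub, mul_one]
  omega

/-- The solubilizer sizes. -/
theorem Ctx.result (x : PSL) :
    (orderOf x = 2 → Nat.card {y : PSL // Sol x y} = Fintype.card F * (Fintype.card F + 1)) ∧
    (orderOf x = 3 → 2 * Nat.card {y : PSL // Sol x y} = Fintype.card F * (Fintype.card F + 5)) ∧
    (x ≠ 1 → orderOf x ≠ 2 → orderOf x ∣ Fintype.card F - 1 →
      Nat.card {y : PSL // Sol x y} = Fintype.card F * (Fintype.card F - 1)) ∧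
    (x ≠ 1 → orderOf x ≠ 2 → orderOf x ∣ Fintype.card F + 1 →
      Nat.card {y : PSL // Sol x y} = Fintype.card F + 1) := by
  haveI := c.char
  haveI : Fact (Nat.Prime 3) := ⟨Nat.prime_three⟩
  obtain ⟨g, rfl⟩ := toPSL_surjective x
  have transfer : ∀ (g' u : SL), toPSL g' = toPSL (u * g * u⁻¹) →
      Nat.card {y : PSL // Sol (toPSL g') y} = Nat.card {y : PSL // Sol (toPSL g) y} := fun g' u e => by
    rw [e, ← conj_psl, card_sol_conj]
  have pre := fun g' : SL => c.card_pre (fun y => Sol (toPSL g') y)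
  have q3 : 3 ∣ Fintype.card F := by
    obtain ⟨n, -, hn⟩ := FiniteField.card F 3
    rw [hn]
    exact dvd_pow_self 3 n.ne_zero
  refine ⟨fun ho => ?_, fun ho => ?_, fun h1 ho hd => ?_, fun h1 ho hd => ?_⟩
  · have hne : toPSL g ≠ 1 := fun e => by rw [e, orderOf_one] at ho; norm_num at ho
    have ht : tr g = 0 := tr_zero_of_psl_sq hne (by
      have := pow_orderOf_eq_one (toPSL g)
      rwa [ho, pow_two] at this)
    have hJns : ¬ IsScal (quatJ : SL) := fun h => one_ne_zero (α := F) (by simpa using h.2.1)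
    obtain ⟨u, hu⟩ := conj_of_tr' (fun h => hne (isScal_iff.1 h)) hJns (by rw [ht]; simp [tr])
      (by rw [ht, c.four]; norm_num)
    have := c.card_J
    rw [pre, transfer _ u (by rw [hu])] at this
    omega
  · have hne : toPSL g ≠ 1 := fun e => by rw [e, orderOf_one] at ho; norm_num at ho
    have ht : tr g ^ 2 = 1 := order_three.1 (by have := pow_orderOf_eq_one (toPSL g); rwa [ho] at this)
    have hu : Unip g := ⟨fun h => hne (isScal_iff.1 h), ht.trans c.four.symm⟩
    obtain ⟨l, hl⟩ := root_of_unip hu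
    obtain ⟨u, hu0⟩ := exists_upper hl
    have hd := det_eq (u * g * u⁻¹)
    rw [hu0, mul_zero, sub_zero] at hd
    have heq : (u * g * u⁻¹) 0 0 = (u * g * u⁻¹) 1 1 := by
      have h4 := hu.2
      rw [← tr_conj u g] at h4
      simp only [tr] at h4
      exact sub_eq_zero.1 (mul_self_eq_zero.1 (by linear_combination h4 - 4 * hd))
    obtain ⟨b, hb, e⟩ : ∃ b : F, b ≠ 0 ∧ toPSL (uel b) = toPSL (u * g * u⁻¹) := by
      have h01 : (u * g * u⁻¹) 0 1 ≠ 0 := fun e => by
        have := isScal_iff.1 (⟨e, hu0, heq⟩ : IsScal (u * g * u⁻¹))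
        rw [← conj_psl, conj_eq_one_iff] at this
        exact hne this
      rw [← heq] at hd
      generalize u * g * u⁻¹ = k at hu0 heq h01 hd
      rcases sq_eq_one_iff.1 (show (k 0 0) ^ 2 = 1 by linear_combination hd) with r | r
      · exact ⟨k 0 1, h01, toPSL_eq_iff.2 (Or.inl (by apply ext2 <;> simp [hu0, ← heq, r]))⟩
      · exact ⟨-(k 0 1), neg_ne_zero.2 h01,
          toPSL_eq_iff.2 (Or.inr (by apply ext2 <;> simp [hu0, ← heq, r]))⟩
    have := c.card_uel hb
    rwa [pre, transfer _ u e] at this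
  all_goals
    have hns : ¬ IsScal g := fun h => h1 (isScal_iff.1 h)
    have ht0 : tr g ≠ 0 := fun ht => ho (by
      rcases (Nat.dvd_prime Nat.prime_two).1
        (orderOf_dvd_of_pow_eq_one (show toPSL g ^ 2 = 1 by rw [pow_two]; exact psl_sq_of_tr_zero ht)) with r | r
      · exact absurd (orderOf_eq_one_iff.1 r) h1
      · exact r)
    have hg : Semi g := ⟨fun h4 => by
      have h3 : orderOf (toPSL g) = 3 :=
        orderOf_eq_prime (order_three.2 (h4.trans c.four)) h1
      rw [h3] at hd
      have := c.mod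
      omega, ht0⟩
  · by_cases hr : ∀ l : F, l ^ 2 - tr g * l + 1 ≠ 0
    · exfalso
      have hp : orderOf (toPSL g) ∣ Fintype.card F + 1 := orderOf_dvd_of_pow_eq_one (by
        rw [← map_pow, Cfsg.Agent.Linear.PSL2Classes.pow_card_succ (fun l => by rw [trace_eq]; exact hr l),
          map_one])
      have h2 : orderOf (toPSL g) ∣ 2 := by
        have := Nat.dvd_sub hp hd
        rwa [show Fintype.card F + 1 - (Fintype.card F - 1) = 2 by have := c.mod; omega] at this
      rcases (Nat.dvd_prime Nat.prime_two).1 h2 with r | r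
      · exact h1 (orderOf_eq_one_iff.1 r)
      · exact ho r
    push Not at hr
    obtain ⟨l, hl⟩ := hr
    have hl0 : l ≠ 0 := fun e => by rw [e] at hl; simp at hl
    have htl : tr (dg l hl0 : SL) = tr g := by
      simp only [tr, dg00, dg11]; simp only [tr] at hl; field_simp; linear_combination hl
    have hg' : Semi (dg l hl0 : SL) := by unfold Semi; rw [htl]; exact hg
    obtain ⟨u, hu⟩ := conj_of_tr' hns hg'.not_scal htl.symm hg.1
    have := c.card_split hl0 hg'
    rw [pre, transfer _ u (by rw [hu]), mul_assoc] at this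
    omega
  · by_cases hr : ∀ l : F, l ^ 2 - tr g * l + 1 ≠ 0
    · have := c.card_nonsplit hg hr
      rw [pre] at this
      omega
    exfalso
    push Not at hr
    obtain ⟨l, hl⟩ := hr
    have hdd : tr g - 2 * l ≠ 0 := fun e => hg.1 (by linear_combination (tr g - 2 * l) * e - 4 * hl)
    have hp : orderOf (toPSL g) ∣ Fintype.card F - 1 := orderOf_dvd_of_pow_eq_one (by
      rw [← map_pow, Cfsg.Agent.Linear.PSL2Classes.pow_card_pred (l := l) (by rw [trace_eq]; exact hl)
        (by rw [trace_eq]; exact hdd), map_one])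
    have h2 : orderOf (toPSL g) ∣ 2 := by
      have := Nat.dvd_sub hd hp
      rwa [show Fintype.card F + 1 - (Fintype.card F - 1) = 2 by have := c.mod; omega] at this
    rcases (Nat.dvd_prime Nat.prime_two).1 h2 with r | r
    · exact h1 (orderOf_eq_one_iff.1 r)
    · exact ho r

end Cfsg.Agent.Core.Solubilizer
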