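import Cfsg.Agent.Core.Solubilizer.Basic

/-!
# The shapes of solvable pairs of `PSL₂(F)`
-/

set_option autoImplicit false
set_option linter.unusedSectionVars false
set_option linter.style.haveILetI false

namespace Cfsg.Agent.Core.Solubilizer

open Matrix
open Cfsg.Agent.Dickson (SL2 tr uel lel ext2 det_eq mul_apply2 IsScal exists_of_commute commute_of_commute
  tr_conj tr_neg tr_one)
open Cfsg.Agent.Linear (toPSL toPSL_surjective toPSL_eq_iff toPSL_eq_one_iff toPSL_neg)

variable {F : Type*} [Field F] [Fintype F]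

local notation "SL" => Matrix.SpecialLinearGroup (Fin 2) F
local notation "PSL" => Matrix.ProjectiveSpecialLinearGroup (Fin 2) F

theorem neg_self (h2 : (2 : F) = 0) (g : SL) : -g = g :=
  Cfsg.Agent.Linear.PSL2ClassSizes.neg_eq_self h2 g

theorem isScal_iff {g : SL} : IsScal g ↔ toPSL g = 1 := by
  rw [toPSL_eq_one_iff]
  refine ⟨fun h => h.eq_one_or, ?_⟩
  rintro (rfl | rfl) <;> exact ⟨by simp, by simp, by simp⟩

theorem psl_comm {g h : SL} (c : Commute (toPSL g) (toPSL h)) : g * h = h * g ∨ g * h = -(h * g) := by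
  have e := c.eq
  rw [← map_mul, ← map_mul, toPSL_eq_iff] at e
  exact e

theorem anti_tr {g h : SL} (e : g * h = -(h * g)) : (2 : F) * tr g = 0 ∧ (2 : F) * tr h = 0 := by
  constructor
  · have h1 : h * g * h⁻¹ = -g := by
      have e' : h * g = -(g * h) := by rw [e, neg_neg]
      rw [e', neg_mul, mul_inv_cancel_right]
    have h2 := tr_conj h g
    rw [h1, tr_neg] at h2
    linear_combination -h2
  · have h1 : g * h * g⁻¹ = -h := by rw [e, neg_mul, mul_inv_cancel_right]
    have h2 := tr_conj g h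
    rw [h1, tr_neg] at h2
    linear_combination -h2

/-- An element whose centralizer does not grow in `PSL₂`. -/
def Reg (g : SL) : Prop := tr g ≠ 0 ∨ (2 : F) = 0

theorem comm_exact {g h : SL} (hg : Reg g) (c : Commute (toPSL g) (toPSL h)) : g * h = h * g := by
  rcases psl_comm c with e | e
  · exact e
  · rcases eq_or_ne (2 : F) 0 with h2 | h2
    · rwa [neg_self h2] at e
    · exact absurd ((mul_eq_zero.1 (anti_tr e).1).resolve_left h2) (hg.resolve_right h2)

theorem comm_of_comm {g h : SL} (e : g * h = h * g) : Commute (toPSL g) (toPSL h) := by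
  show _ = _
  rw [← map_mul, ← map_mul, e]

theorem sq_of_tr_zero {g : SL} (h : tr g = 0) : g * g = -1 := by
  simp only [tr] at h
  apply ext2 <;> simp [mul_apply2]
  · linear_combination (g 0 0) * h - det_eq g
  · linear_combination (g 0 1) * h
  · linear_combination (g 1 0) * h
  · linear_combination (g 1 1) * h - det_eq g

theorem psl_sq_of_tr_zero {g : SL} (h : tr g = 0) : toPSL g * toPSL g = 1 := by
  rw [← map_mul, sq_of_tr_zero h, toPSL_neg, map_one]

theorem tr_zero_of_psl_sq {g : SL} (hg : toPSL g ≠ 1) (h : toPSL g * toPSL g = 1) : tr g = 0 := by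
  by_contra ht
  refine hg (isScal_iff.1 ?_)
  rw [← map_mul, toPSL_eq_one_iff] at h
  have h01 : (g * g) 0 1 = 0 ∧ (g * g) 1 0 = 0 ∧ (g * g) 0 0 = (g * g) 1 1 := by
    rcases h with r | r <;> rw [r] <;> simp
  simp only [mul_apply2, tr] at h01 ht
  have a : tr g * g 0 1 = 0 := by unfold tr; linear_combination h01.1
  have b : tr g * g 1 0 = 0 := by unfold tr; linear_combination h01.2.1
  have c : tr g * (g 0 0 - g 1 1) = 0 := by unfold tr; linear_combination h01.2.2
  exact ⟨(mul_eq_zero.1 a).resolve_left ht, (mul_eq_zero.1 b).resolve_left ht,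
    sub_eq_zero.1 ((mul_eq_zero.1 c).resolve_left ht)⟩

/-- Inverting a non-scalar element needs trace zero. -/
theorem tr_zero_of_invert {g h : SL} (hg : ¬ IsScal g) (e : h * g * h⁻¹ = g⁻¹) : tr h = 0 := by
  have e' : h * g = g⁻¹ * h := mul_inv_eq_iff_eq_mul.1 e
  have e00 := congrArg (fun m : SL => m 0 0) e'
  have e01 := congrArg (fun m : SL => m 0 1) e'
  have e10 := congrArg (fun m : SL => m 1 0) e'
  have e11 := congrArg (fun m : SL => m 1 1) e'
  simp [mul_apply2] at e00 e01 e10 e11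
  by_contra ht
  have a : tr h * g 0 1 = 0 := by unfold tr; linear_combination e01
  have b : tr h * g 1 0 = 0 := by unfold tr; linear_combination e10
  have c : tr h * (g 0 0 - g 1 1) = 0 := by unfold tr; linear_combination e00 - e11
  exact hg ⟨(mul_eq_zero.1 a).resolve_left ht, (mul_eq_zero.1 b).resolve_left ht,
    sub_eq_zero.1 ((mul_eq_zero.1 c).resolve_left ht)⟩

/-- A semisimple element that is no involution. -/
def Semi (g : SL) : Prop := tr g ^ 2 ≠ 4 ∧ tr g ≠ 0

/-- A unipotent element up to sign. -/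
def Unip (g : SL) : Prop := ¬ IsScal g ∧ tr g ^ 2 = 4

theorem Semi.not_scal {g : SL} (h : Semi g) : ¬ IsScal g := by
  intro hs
  rcases hs.eq_one_or with rfl | rfl
  · exact h.1 (by rw [tr_one]; norm_num)
  · exact h.1 (by rw [tr_neg, tr_one]; norm_num)

theorem Semi.reg {g : SL} (h : Semi g) : Reg g := Or.inl h.2

theorem Unip.reg {g : SL} (h : Unip g) : Reg g := by
  by_contra hr
  simp only [Reg, not_or, not_not] at hr
  have := h.2
  rw [hr.1] at this
  exact mul_ne_zero hr.2 hr.2 (by linear_combination -this)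

theorem same_class {z w : SL} (ht : tr z ^ 2 ≠ 4) (hc : z * w = w * z) (htr : tr w = tr z) :
    toPSL w = toPSL z ∨ toPSL w = (toPSL z)⁻¹ := by
  have hz : ¬ IsScal z := fun hs => by
    rcases hs.eq_one_or with rfl | rfl
    · exact ht (by rw [tr_one]; norm_num)
    · exact ht (by rw [tr_neg, tr_one]; norm_num)
  obtain ⟨a, b, e1, e2, e3, e4⟩ := exists_of_commute hz hc
  have hd := det_eq w
  rw [e1, e2, e3, e4] at hd
  have htr' : 2 * a + b * tr z = tr z := by
    calc 2 * a + b * tr z = tr w := by simp only [tr]; rw [e1, e4]; ring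
      _ = tr z := htr
  have key : (1 - b ^ 2) * (tr z ^ 2 - 4) = 0 := by
    have hd' : a ^ 2 + a * b * tr z + b ^ 2 = 1 := by
      simp only [tr]; linear_combination hd - b ^ 2 * det_eq z
    linear_combination 4 * hd' - (2 * a + b * tr z + tr z) * htr'
  have hb : b ^ 2 = 1 := (sub_eq_zero.1 ((mul_eq_zero.1 key).resolve_right (sub_ne_zero.2 ht))).symm
  have hab : a * (a + b * tr z) = 0 := by
    simp only [tr]; linear_combination hd - b ^ 2 * det_eq z - hb
  rcases mul_eq_zero.1 hab with ha | ha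
  · left
    rcases sq_eq_one_iff.1 hb with r | r
    · exact toPSL_eq_iff.2 (Or.inl (by apply ext2 <;> simp [e1, e2, e3, e4, ha, r]))
    · exact toPSL_eq_iff.2 (Or.inr (by apply ext2 <;> simp [e1, e2, e3, e4, ha, r]))
  · right
    rw [← map_inv]
    simp only [tr] at ha
    have ha' : a = -(b * (z 0 0 + z 1 1)) := eq_neg_of_add_eq_zero_left ha
    rcases sq_eq_one_iff.1 hb with r | r
    · exact toPSL_eq_iff.2 (Or.inr (by apply ext2 <;> simp [e1, e2, e3, e4, ha', r, Matrix.adjugate_fin_two]))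
    · exact toPSL_eq_iff.2 (Or.inl (by apply ext2 <;> simp [e1, e2, e3, e4, ha', r, Matrix.adjugate_fin_two]))

/-- `k` centralises or inverts `a` in `PSL₂`. -/
def Norm2 (a k : SL) : Prop :=
  toPSL k * toPSL a * (toPSL k)⁻¹ = toPSL a ∨ toPSL k * toPSL a * (toPSL k)⁻¹ = (toPSL a)⁻¹

theorem conj_psl (h g : SL) : toPSL h * toPSL g * (toPSL h)⁻¹ = toPSL (h * g * h⁻¹) := by simp [map_mul]

theorem Semi.norm2_of_comm {a k : SL} (ha : Semi a)
    (c : Commute (toPSL a) (toPSL k * toPSL a * (toPSL k)⁻¹)) : Norm2 a k := by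
  rw [conj_psl] at c
  unfold Norm2
  rw [conj_psl]
  exact same_class ha.1 (comm_exact ha.reg c) (tr_conj k a)

theorem Semi.invert_exact {a k : SL} (ha : Semi a) (e : toPSL k * toPSL a * (toPSL k)⁻¹ = (toPSL a)⁻¹) :
    k * a * k⁻¹ = a⁻¹ := by
  rw [conj_psl, ← map_inv, toPSL_eq_iff] at e
  rcases e with e | e
  · exact e
  · have h := congrArg tr e
    rw [tr_conj, tr_neg, Cfsg.Agent.Dickson.tr_inv] at h
    have h2 : (2 : F) = 0 := (mul_eq_zero.1 (show (2 : F) * tr a = 0 by linear_combination h)).resolve_right ha.2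
    rwa [neg_self h2] at e

theorem Semi.tr_zero_of_invert {a k : SL} (ha : Semi a)
    (e : toPSL k * toPSL a * (toPSL k)⁻¹ = (toPSL a)⁻¹) : tr k = 0 :=
  Solubilizer.tr_zero_of_invert ha.not_scal (ha.invert_exact e)

theorem comm_of_conj_eq {a k : SL} (e : toPSL k * toPSL a * (toPSL k)⁻¹ = toPSL a) :
    Commute (toPSL k) (toPSL a) :=
  mul_inv_eq_iff_eq_mul.1 e

/-- The normaliser of the centralizer of a semisimple element. -/
theorem Semi.norm2_transfer {a g k : SL} (ha : ¬ IsScal a) (hg : Semi g)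
    (hc : Commute (toPSL a) (toPSL g)) (hk : Norm2 a k) : Norm2 g k := by
  refine hg.norm2_of_comm ?_
  have hc' : Commute (toPSL a) (toPSL k * toPSL g * (toPSL k)⁻¹) := by
    rcases hk with e | e
    · have := hc.map (MulAut.conj (toPSL k)).toMonoidHom
      simp only [MulEquiv.coe_toMonoidHom, MulAut.conj_apply] at this
      rwa [e] at this
    · have := hc.map (MulAut.conj (toPSL k)).toMonoidHom
      simp only [MulEquiv.coe_toMonoidHom, MulAut.conj_apply] at this
      rw [e] at this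
      simpa using this.inv_left
  have h1 := comm_exact hg.reg hc.symm
  rw [conj_psl] at hc' ⊢
  have h2 := comm_exact (g := k * g * k⁻¹) (by left; rw [tr_conj]; exact hg.2) hc'.symm
  exact comm_of_comm (commute_of_commute ha h1.symm h2.symm)

theorem four_of (h2 : (2 : F) ≠ 0) {a b : SL} (ha : tr a = 0) (hb : tr b = 0)
    (c : Commute (toPSL a) (toPSL b)) (ne : toPSL a ≠ toPSL b) : Four (toPSL a) (toPSL b) := by
  have hsc : ∀ m : SL, tr m = 0 → ¬ IsScal m := fun m hm hs => by
    rcases hs.eq_one_or with rfl | rfl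
    · exact h2 (by rw [← hm, tr_one])
    · exact h2 (by rw [tr_neg, tr_one, neg_eq_zero] at hm; exact hm)
  have anti : a * b = -(b * a) := by
    rcases psl_comm c with e | e
    · exfalso
      obtain ⟨x, y, e1, e2, e3, e4⟩ := exists_of_commute (hsc a ha) e
      have hx : x = 0 := (mul_eq_zero.1 (show (2 : F) * x = 0 by
        simp only [tr] at ha hb; rw [e1, e4] at hb; linear_combination hb - y * ha)).resolve_left h2
      have hy : y ^ 2 = 1 := by
        have hd := det_eq b
        rw [e1, e2, e3, e4, hx] at hd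
        linear_combination hd - y ^ 2 * det_eq a
      rcases sq_eq_one_iff.1 hy with r | r
      · exact ne (toPSL_eq_iff.2 (Or.inl (by apply ext2 <;> simp [e1, e2, e3, e4, hx, r])))
      · exact ne (toPSL_eq_iff.2 (Or.inr (by apply ext2 <;> simp [e1, e2, e3, e4, hx, r])))
    · exact e
  have nab : a * b ≠ b * a := fun e => by
    rw [e] at anti
    have h00 : ∀ i j, (2 : F) * (b * a) i j = 0 := fun i j => by
      have h := congrArg (fun m : SL => m i j) anti
      simp only [Matrix.SpecialLinearGroup.coe_neg, Matrix.neg_apply] at h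
      linear_combination h
    have h' := det_eq (b * a)
    rw [(mul_eq_zero.1 (h00 0 0)).resolve_left h2, (mul_eq_zero.1 (h00 0 1)).resolve_left h2] at h'
    simp at h'
  have scal : ∀ m : SL, m * a = a * m → m * b = b * m → toPSL m = 1 := fun m e e' => by
    rw [← isScal_iff]
    by_contra hm
    exact nab (commute_of_commute hm e e')
  refine ⟨psl_sq_of_tr_zero ha, psl_sq_of_tr_zero hb, c.eq, fun e => hsc a ha (isScal_iff.2 e),
    fun e => hsc b hb (isScal_iff.2 e), ne, fun K cA cB => ?_⟩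
  obtain ⟨k, rfl⟩ := toPSL_surjective K
  have saa := sq_of_tr_zero ha
  have sbb := sq_of_tr_zero hb
  have hAA := inv_eq_of_mul_eq_one_left (psl_sq_of_tr_zero (F := F) ha)
  have hBB := inv_eq_of_mul_eq_one_left (psl_sq_of_tr_zero (F := F) hb)
  have anti' : b * a = -(a * b) := by rw [anti, neg_neg]
  rcases psl_comm cA with e | e <;> rcases psl_comm cB with e' | e'
  · exact Or.inl (scal k e e')
  · refine Or.inr (Or.inl ?_)
    have := scal (k * a) (by rw [← mul_assoc a k a, ← e])
      (by rw [mul_assoc, anti, mul_neg, ← mul_assoc, e', neg_mul, neg_neg, mul_assoc])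
    rw [map_mul] at this
    rw [eq_inv_of_mul_eq_one_left this, hAA]
  · refine Or.inr (Or.inr (Or.inl ?_))
    have := scal (k * b) (by rw [mul_assoc, anti', mul_neg, ← mul_assoc, e, neg_mul, neg_neg, mul_assoc])
      (by rw [← mul_assoc b k b, ← e'])
    rw [map_mul] at this
    rw [eq_inv_of_mul_eq_one_left this, hBB]
  · refine Or.inr (Or.inr (Or.inr ?_))
    have := scal (k * a * b)
      (by
        have l : k * a * b * a = k * b := by
          rw [mul_assoc (k * a) b a, anti', mul_neg, ← mul_assoc, mul_assoc k a a, saa]; simp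
        have r : a * (k * a * b) = k * b := by
          rw [← mul_assoc, ← mul_assoc, show a * k = -(k * a) by rw [e, neg_neg]]
          simp only [neg_mul]
          rw [mul_assoc k a a, saa]; simp
        rw [l, r])
      (by
        have l : k * a * b * b = -(k * a) := by rw [mul_assoc (k * a) b b, sbb]; simp
        have r : b * (k * a * b) = -(k * a) := by
          rw [← mul_assoc, ← mul_assoc, show b * k = -(k * b) by rw [e', neg_neg]]
          simp only [neg_mul]
          rw [mul_assoc k b a, anti', mul_neg, neg_mul, neg_neg, mul_assoc k (a * b) b, mul_assoc a b b, sbb]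
          simp
        rw [l, r])
    rw [map_mul, map_mul] at this
    have hinv := eq_inv_of_mul_eq_one_left (show toPSL k * (toPSL a * toPSL b) = 1 by rw [← mul_assoc]; exact this)
    rw [hinv, _root_.mul_inv_rev, hAA, hBB, c.eq]

theorem no4 (hno : ∀ t : F, t ^ 2 ≠ 2) (z : PSL) (hz : z ^ 4 = 1) : z * z = 1 := by
  obtain ⟨g, rfl⟩ := toPSL_surjective z
  by_contra hne
  rw [← map_mul] at hne
  have h := tr_zero_of_psl_sq hne (by
    rw [map_mul]; rw [show 4 = 2 + 2 from rfl, pow_add, pow_two] at hz; exact hz)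
  simp only [tr, mul_apply2] at h
  exact hno (tr g) (by unfold tr; linear_combination h + 2 * det_eq g)

/-- The four shapes of a solvable pair. -/
theorem struct {g h : SL} (hg : toPSL g ≠ 1) (hs : Sol (toPSL g) (toPSL h)) :
    ∃ a : SL,
      (Semi a ∧ Norm2 a g ∧ Norm2 a h) ∨
      (Unip a ∧ Commute (toPSL a) (toPSL g * toPSL a * (toPSL g)⁻¹) ∧
        Commute (toPSL a) (toPSL h * toPSL a * (toPSL h)⁻¹)) ∨
      ((2 : F) ≠ 0 ∧ tr a = 0 ∧ Commute (toPSL g) (toPSL a) ∧ Commute (toPSL h) (toPSL a)) ∨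
      ((2 : F) ≠ 0 ∧ ∃ b : SL, tr a = 0 ∧ tr b = 0 ∧ Four (toPSL a) (toPSL b) ∧
        NV (toPSL a) (toPSL b) (toPSL g) ∧ NV (toPSL a) (toPSL b) (toPSL h)) := by
  obtain ⟨A, hA, hconj⟩ := exists_special hs hg
  obtain ⟨a, rfl⟩ := toPSL_surjective A
  have hns : ¬ IsScal a := fun h' => hA (isScal_iff.1 h')
  refine ⟨a, ?_⟩
  set K := Subgroup.closure ({toPSL g, toPSL h} : Set PSL)
  have hgK : toPSL g ∈ K := Subgroup.subset_closure (by simp)
  have hhK : toPSL h ∈ K := Subgroup.subset_closure (by simp)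
  have hA1 : ∀ k ∈ K, Commute (toPSL a) (k * toPSL a * k⁻¹) := fun k hk => by
    simpa using hconj 1 (one_mem _) k hk
  by_cases ht4 : tr a ^ 2 = 4
  · exact Or.inr (Or.inl ⟨⟨hns, ht4⟩, hA1 _ hgK, hA1 _ hhK⟩)
  by_cases ht0 : tr a = 0
  swap
  · exact Or.inl ⟨⟨ht4, ht0⟩, (show Semi a from ⟨ht4, ht0⟩).norm2_of_comm (hA1 _ hgK),
      (show Semi a from ⟨ht4, ht0⟩).norm2_of_comm (hA1 _ hhK)⟩
  have h2 : (2 : F) ≠ 0 := fun h2 => ht4 (by rw [ht0]; linear_combination -(2 : F) * h2)
  by_cases hboth : toPSL g * toPSL a * (toPSL g)⁻¹ = toPSL a ∧ toPSL h * toPSL a * (toPSL h)⁻¹ = toPSL a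
  · exact Or.inr (Or.inr (Or.inl ⟨h2, ht0, comm_of_conj_eq hboth.1, comm_of_conj_eq hboth.2⟩))
  obtain ⟨m, hm, hmne⟩ : ∃ m : SL, toPSL m ∈ K ∧ toPSL m * toPSL a * (toPSL m)⁻¹ ≠ toPSL a := by
    by_contra hc
    push Not at hc
    exact hboth ⟨hc g hgK, hc h hhK⟩
  refine Or.inr (Or.inr (Or.inr ⟨h2, m * a * m⁻¹, ht0, by rw [tr_conj, ht0], ?_⟩))
  rw [← conj_psl]
  have hF := four_of h2 ht0 (show tr (m * a * m⁻¹) = 0 by rw [tr_conj, ht0])
    (by rw [← conj_psl]; exact hA1 _ hm) (by rw [← conj_psl]; exact hmne.symm)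
  rw [← conj_psl] at hF
  have mem : ∀ l ∈ K, l * toPSL a * l⁻¹ ∈ tri (toPSL a) (toPSL m * toPSL a * (toPSL m)⁻¹) := fun l hl => by
    have c1 : Commute (l * toPSL a * l⁻¹) (toPSL a) := (hA1 l hl).symm
    have c2 := hconj l hl (toPSL m) hm
    rcases hF.cent _ c1 c2 with r | r | r | r
    · exact absurd (conj_eq_one_iff.1 r) hA
    all_goals simp [tri, r]
  have hNV : ∀ k ∈ K, NV (toPSL a) (toPSL m * toPSL a * (toPSL m)⁻¹) k := by
    intro k hk z hz
    have i1 := mem k hk
    have i2 : k * (toPSL m * toPSL a * (toPSL m)⁻¹) * k⁻¹ ∈ tri (toPSL a) (toPSL m * toPSL a * (toPSL m)⁻¹) := by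
      have := mem _ (mul_mem hk hm)
      simpa [mul_assoc, _root_.mul_inv_rev] using this
    rcases hz with rfl | rfl | rfl
    · exact i1
    · exact i2
    · have hdist : k * toPSL a * k⁻¹ ≠ k * (toPSL m * toPSL a * (toPSL m)⁻¹) * k⁻¹ := by
        simp only [ne_eq, mul_left_inj, mul_right_inj]
        exact hF.ne
      rw [show k * (toPSL a * (toPSL m * toPSL a * (toPSL m)⁻¹)) * k⁻¹ =
        (k * toPSL a * k⁻¹) * (k * (toPSL m * toPSL a * (toPSL m)⁻¹) * k⁻¹) by group]
      revert i1 i2 hdist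
      generalize k * toPSL a * k⁻¹ = P
      generalize k * (toPSL m * toPSL a * (toPSL m)⁻¹) * k⁻¹ = Q
      generalize toPSL m * toPSL a * (toPSL m)⁻¹ = B at hF
      intro i1 i2 hdist
      have s1 := hF.sqA
      have s2 := hF.sqB
      have cm := hF.comm
      have r1 : toPSL a * (toPSL a * B) = B := by rw [← mul_assoc, s1, one_mul]
      have r2 : (toPSL a * B) * toPSL a = B := by rw [cm, mul_assoc, s1, mul_one]
      have r3 : B * (toPSL a * B) = toPSL a := by rw [cm, ← mul_assoc, s2, one_mul]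
      have r4 : (toPSL a * B) * B = toPSL a := by rw [mul_assoc, s2, mul_one]
      rcases i1 with rfl | rfl | rfl <;> rcases i2 with rfl | rfl | rfl
      all_goals first
        | exact absurd rfl hdist
        | simp [tri, r1, r2, r3, r4, cm.symm]
  exact ⟨hF, hNV _ hgK, hNV _ hhK⟩

theorem order_three [CharP F 3] {k : SL} : toPSL k ^ 3 = 1 ↔ tr k ^ 2 = 1 := by
  have h3 : (3 : F) = 0 := by exact_mod_cast CharP.cast_eq_zero F 3
  haveI : Fact (Nat.Prime 3) := ⟨Nat.prime_three⟩
  constructor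
  · intro h
    rcases Cfsg.Agent.Linear.PSL2Classes.pow_eq_one_or_neg h with e | e
    · rw [Cfsg.Agent.Dickson.tr_of_pow (p := 3) (k := 1) (g := k) (by simpa using e)]
      linear_combination h3
    · have hn := Cfsg.Agent.Dickson.tr_of_pow (p := 3) (k := 1) (g := -k) (by
        simp [Odd.neg_pow (show Odd 3 by decide), e])
      rw [tr_neg] at hn
      rw [show tr k = -2 by linear_combination -hn]
      linear_combination h3
  · intro h
    rcases sq_eq_one_iff.1 h with e | e
    · have := Cfsg.Agent.Dickson.pow_p_of_tr (p := 3) (-k) (by rw [tr_neg, e]; linear_combination -h3)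
      rw [← toPSL_neg, ← map_pow, this, map_one]
    · have := Cfsg.Agent.Dickson.pow_p_of_tr (p := 3) k (by rw [e]; linear_combination -h3)
      rw [← map_pow, this, map_one]

theorem root_of_unip {a : SL} (ha : Unip a) : ∃ l : F, l ^ 2 - tr a * l + 1 = 0 := by
  rcases eq_or_ne (2 : F) 0 with h2 | h2
  · refine ⟨1, ?_⟩
    have ht : tr a = 0 := mul_self_eq_zero.1 (show tr a * tr a = 0 by linear_combination ha.2 + (2 : F) * h2)
    rw [ht]; linear_combination h2
  · refine ⟨tr a / 2, ?_⟩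
    field_simp
    linear_combination -ha.2

theorem fix_upper {a h : SL} (ha : Unip a) (h0 : a 1 0 = 0)
    (c : Commute (toPSL a) (toPSL h * toPSL a * (toPSL h)⁻¹)) : h 1 0 = 0 := by
  rw [conj_psl] at c
  obtain ⟨x, y, -, -, e3, -⟩ := exists_of_commute ha.1 (comm_exact ha.reg c)
  rw [h0, mul_zero] at e3
  have hd := det_eq a
  rw [h0, mul_zero, sub_zero] at hd
  have heq : a 0 0 = a 1 1 := by
    have h4 := ha.2
    simp only [tr] at h4
    exact sub_eq_zero.1 (mul_self_eq_zero.1
      (show (a 0 0 - a 1 1) * (a 0 0 - a 1 1) = 0 by linear_combination h4 - 4 * hd))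
  have h01 : a 0 1 ≠ 0 := fun e => ha.1 ⟨e, h0, heq⟩
  simp [mul_apply2, h0, heq] at e3
  exact mul_self_eq_zero.1 ((mul_eq_zero.1
    (show a 0 1 * (h 1 0 * h 1 0) = 0 by linear_combination -e3)).resolve_left h01)

theorem fix_lower {a h : SL} (ha : Unip a) (h0 : a 0 1 = 0)
    (c : Commute (toPSL a) (toPSL h * toPSL a * (toPSL h)⁻¹)) : h 0 1 = 0 := by
  rw [conj_psl] at c
  obtain ⟨x, y, -, e2, -, -⟩ := exists_of_commute ha.1 (comm_exact ha.reg c)
  rw [h0, mul_zero] at e2
  have hd := det_eq a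
  rw [h0, zero_mul, sub_zero] at hd
  have heq : a 0 0 = a 1 1 := by
    have h4 := ha.2
    simp only [tr] at h4
    exact sub_eq_zero.1 (mul_self_eq_zero.1
      (show (a 0 0 - a 1 1) * (a 0 0 - a 1 1) = 0 by linear_combination h4 - 4 * hd))
  have h10 : a 1 0 ≠ 0 := fun e => ha.1 ⟨h0, e, heq⟩
  simp [mul_apply2, h0, heq] at e2
  exact mul_self_eq_zero.1 ((mul_eq_zero.1
    (show a 1 0 * (h 0 1 * h 0 1) = 0 by linear_combination -e2)).resolve_left h10)

theorem unip_uel {a : SL} (ha : Unip a) {b : F} (hb : b ≠ 0)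
    (c : Commute (toPSL a) (toPSL (uel b) * toPSL a * (toPSL (uel b))⁻¹)) : a 1 0 = 0 := by
  rw [conj_psl] at c
  obtain ⟨x, y, e1, e2, e3, e4⟩ := exists_of_commute ha.1 (comm_exact ha.reg c)
  simp [mul_apply2] at e1 e2 e3 e4
  by_contra h10
  have hy : y = 1 := mul_right_cancel₀ h10 (by linear_combination -e3)
  rw [hy] at e1 e2 e4
  have k2 : (2 : F) * (b * a 1 0) = 0 := by linear_combination e1 - e4
  have h2 : (2 : F) = 0 := (mul_eq_zero.1 k2).resolve_right (mul_ne_zero hb h10)
  have k3 : b * (a 1 1 - a 0 0) - b * b * a 1 0 = 0 := by linear_combination e2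
  have ht := ha.2
  simp only [tr] at ht
  have t0 : a 0 0 + a 1 1 = 0 := mul_self_eq_zero.1 (by linear_combination ht + (2 : F) * h2)
  exact mul_ne_zero (mul_ne_zero hb hb) h10 (by linear_combination -k3 + b * t0 - b * a 0 0 * h2)

/-- A diagonal element. -/
def dg (l : F) (hl : l ≠ 0) : SL := ⟨!![l, 0; 0, l⁻¹], by simp [Matrix.det_fin_two, hl]⟩

@[simp] theorem dg00 (l : F) (hl : l ≠ 0) : dg l hl 0 0 = l := rfl
@[simp] theorem dg01 (l : F) (hl : l ≠ 0) : dg l hl 0 1 = 0 := rfl
@[simp] theorem dg10 (l : F) (hl : l ≠ 0) : dg l hl 1 0 = 0 := rfl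
@[simp] theorem dg11 (l : F) (hl : l ≠ 0) : dg l hl 1 1 = l⁻¹ := rfl

theorem unip_diag {a : SL} (ha : Unip a) {l : F} (hl : l ≠ 0) (hs : Semi (dg l hl))
    (c : Commute (toPSL a) (toPSL (dg l hl) * toPSL a * (toPSL (dg l hl))⁻¹)) : a 1 0 = 0 ∨ a 0 1 = 0 := by
  rw [conj_psl] at c
  obtain ⟨x, y, -, e2, e3, -⟩ := exists_of_commute ha.1 (comm_exact ha.reg c)
  simp [mul_apply2] at e2 e3
  by_contra hc
  push Not at hc
  have y1 : y = l * l := mul_right_cancel₀ hc.2 (by linear_combination -e2)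
  have y2 : y = l⁻¹ * l⁻¹ := mul_right_cancel₀ hc.1 (by linear_combination -e3)
  have hl4 : (l * l) * (l * l) = 1 := by
    nth_rewrite 2 [← y1]
    rw [y2]
    field_simp
  obtain ⟨h4, h0⟩ := hs
  simp only [tr, dg00, dg11] at h4 h0
  rcases mul_eq_zero.1 (show (l * l - 1) * (l * l + 1) = 0 by linear_combination hl4) with r | r
  · apply h4; field_simp; linear_combination (l * l - 1) * r
  · apply h0; field_simp; linear_combination r

theorem unip_none {a g : SL} (ha : Unip a) (hg : ∀ l : F, l ^ 2 - tr g * l + 1 ≠ 0)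
    (c : Commute (toPSL a) (toPSL g * toPSL a * (toPSL g)⁻¹)) : False := by
  obtain ⟨u, hu⟩ : ∃ u : SL, (u * a * u⁻¹) 1 0 = 0 := by
    by_cases h10 : a 1 0 = 0
    · exact ⟨1, by simpa using h10⟩
    obtain ⟨l, hl⟩ := root_of_unip ha
    obtain ⟨u, -, -, u10, u11⟩ : ∃ u : SL, u 0 0 = 0 ∧ u 0 1 = -(a 1 0)⁻¹ ∧ u 1 0 = a 1 0 ∧ u 1 1 = l - a 0 0 :=
      ⟨⟨!![0, -(a 1 0)⁻¹; a 1 0, l - a 0 0], by simp [Matrix.det_fin_two, h10]⟩, rfl, rfl, rfl, rfl⟩
    refine ⟨u, ?_⟩
    simp [mul_apply2, u10, u11]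
    simp only [tr] at hl
    linear_combination (a 1 0) * hl + (a 1 0) * det_eq a
  have ha' : Unip (u * a * u⁻¹) := ⟨fun hs => ha.1 (isScal_iff.2 (by
    have := isScal_iff.1 hs
    rw [← conj_psl, conj_eq_one_iff] at this
    exact this)), by rw [tr_conj]; exact ha.2⟩
  have hc' : Commute (toPSL (u * a * u⁻¹))
      (toPSL (u * g * u⁻¹) * toPSL (u * a * u⁻¹) * (toPSL (u * g * u⁻¹))⁻¹) := by
    have := c.map (MulAut.conj (toPSL u)).toMonoidHom
    simpa [mul_assoc] using this
  have h0 := fix_upper ha' hu hc'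
  refine hg ((u * g * u⁻¹) 0 0) ?_
  have hd := det_eq (u * g * u⁻¹)
  rw [h0, mul_zero, sub_zero] at hd
  rw [← tr_conj u g]
  simp only [tr]
  linear_combination -hd

end Cfsg.Agent.Core.Solubilizer
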